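import Cfsg.Agent.H13.Spinor
import Cfsg.Agent.H17.Mat
import Cfsg.Agent.H11.Invol

/-! The double covers of the symmetric and alternating groups inside a Clifford algebra, and
splitting of double covers. -/

namespace Cfsg.Agent.H17

open CliffordAlgebra QuadraticMap Equiv

instance instFact7 : Fact (Nat.Prime 7) := ⟨by norm_num⟩

/-- sum of squares over `𝔽₇` -/
noncomputable def Q7 (n : ℕ) : QuadraticForm (ZMod 7) (Fin n → ZMod 7) :=
  weightedSumSquares (ZMod 7) fun _ : Fin n => (1 : ZMod 7)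

variable {n : ℕ}

theorem Q7_apply (x : Fin n → ZMod 7) : Q7 n x = ∑ i, x i * x i := by
  simp [Q7, weightedSumSquares_apply]

theorem polar_Q7 (x y : Fin n → ZMod 7) : polar (Q7 n) x y = ∑ i, 2 * x i * y i := by
  simp only [polar, Q7_apply, Pi.add_apply, ← Finset.sum_sub_distrib]
  exact Finset.sum_congr rfl fun i _ => by ring

theorem nd_Q7 : H13.ND (Q7 n) := fun x h => funext fun i => by
  have := h (Pi.single i 1)
  rw [polar_Q7, Finset.sum_eq_single i (fun j _ hj => by simp [hj]) (by simp)] at this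
  simpa [show (2 : ZMod 7) ≠ 0 by decide] using this

/-- the norm-one vector attached to a transposition -/
def v7 (i j : Fin n) : Fin n → ZMod 7 := Pi.single i 2 - Pi.single j 2

theorem polar_v7 (i j : Fin n) (w : Fin n → ZMod 7) :
    polar (Q7 n) (v7 i j) w = 4 * (w i - w j) := by
  simp only [polar_Q7, v7, Pi.sub_apply, mul_sub, sub_mul, Finset.sum_sub_distrib, Pi.single_apply,
    mul_ite, ite_mul, mul_zero, zero_mul, Finset.sum_ite_eq', Finset.mem_univ, if_true]
  ring

theorem Q7_v7 {i j : Fin n} (h : i ≠ j) : Q7 n (v7 i j) = 1 := by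
  have := polar_v7 i j (v7 i j)
  rw [polar_self] at this
  simp only [v7, Pi.sub_apply, Pi.single_apply, h, h.symm, if_true, if_false] at this
  exact (by decide : ∀ c : ZMod 7, 2 • c = 4 * (2 - 0 - (0 - 2)) → c = 1) _ this

theorem refl_v7 {i j : Fin n} (h : i ≠ j) (w : Fin n → ZMod 7) :
    (H13.refl (Q7 n) (v7 i j)).1 w = w ∘ swap i j := by
  rw [H13.refl_apply, Q7_v7 h, polar_v7]
  funext k
  simp only [v7, Pi.sub_apply, Pi.smul_apply, Pi.single_apply, Function.comp_apply,
    swap_apply_def, smul_eq_mul, inv_one, mul_one]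
  have : (8 : ZMod 7) = 1 := by decide
  split_ifs with h1 h2 h2
  · exact absurd (h1.symm.trans h2) h
  · rw [h1]; linear_combination -(w i - w j) * this
  · rw [h2]; linear_combination (w i - w j) * this
  · ring

/-- the double cover of the symmetric group -/
def PinS (n : ℕ) : Subgroup ((CliffordAlgebra (Q7 n))ˣ × Perm (Fin n)) where
  carrier := {p | (∀ w, involute p.1.1 * ι (Q7 n) w = ι (Q7 n) (w ∘ p.2.symm) * p.1.1) ∧
    reverse p.1.1 * p.1.1 = 1}
  one_mem' := ⟨fun w => by simp [Perm.one_def], by simp⟩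
  mul_mem' {a b} ha hb := ⟨fun w => by
    rw [Prod.fst_mul, Units.val_mul, map_mul, mul_assoc, hb.1, ← mul_assoc, ha.1, mul_assoc]; rfl,
    by rw [Prod.fst_mul, Units.val_mul, reverse.map_mul, mul_assoc, ← mul_assoc _ a.1.1, ha.2,
      one_mul, hb.2]⟩
  inv_mem' {a} ha := ⟨fun w => by
    have h := ha.1 (w ∘ a.2)
    rw [show (w ∘ a.2) ∘ a.2.symm = w by ext; simp] at h
    rw [Prod.fst_inv, ← Units.mul_left_inj a.1, mul_assoc, ← h, ← mul_assoc, ← map_mul,
      Units.inv_mul, map_one, one_mul, mul_assoc, Units.inv_mul, mul_one]; rfl,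
    by
      have h : reverse a.1.1 = (a.1⁻¹).1 := Units.eq_inv_of_mul_eq_one_right ha.2
      rw [Prod.fst_inv]
      nth_rewrite 2 [← h]
      rw [← reverse.map_mul, Units.mul_inv, reverse.map_one]⟩

/-- the lift of a transposition -/
noncomputable def t7 {i j : Fin n} (h : i ≠ j) : (CliffordAlgebra (Q7 n))ˣ :=
  ⟨ι _ (v7 i j), ι _ (v7 i j), by rw [ι_sq_scalar, Q7_v7 h, map_one],
    by rw [ι_sq_scalar, Q7_v7 h, map_one]⟩

theorem t7_mem {i j : Fin n} (h : i ≠ j) : (t7 h, swap i j) ∈ PinS n :=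
  ⟨fun w => by
    simp only [t7, involute_ι, neg_mul, symm_swap]
    rw [H13.ι_mul_ι_eq_refl (by rw [Q7_v7 h]; exact one_ne_zero), neg_neg, refl_v7 h],
  by simp only [t7, reverse_ι]; rw [ι_sq_scalar, Q7_v7 h, map_one]⟩

theorem t7_sq {i j : Fin n} (h : i ≠ j) : t7 h * t7 h = 1 := Units.ext (t7 h).val_inv

theorem t7_anti {i j k l : Fin n} (h : i ≠ j) (h' : k ≠ l) (h0 : v7 k l i = v7 k l j) :
    t7 h * t7 h' = -(t7 h' * t7 h) := Units.ext (by
  simp only [t7, Units.val_mul, Units.val_neg]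
  rw [ι_mul_ι_comm, polar_v7, h0]; simp)

theorem exists_PinS (σ : Perm (Fin n)) : ∃ x, (x, σ) ∈ PinS n := by
  induction σ using Perm.swap_induction_on with
  | one => exact ⟨1, one_mem _⟩
  | swap_mul f i j h ih => exact ⟨t7 h * ih.choose, mul_mem (t7_mem h) ih.choose_spec⟩

theorem eq_of_mem_PinS {x} (h : (x, 1) ∈ PinS n) : x = 1 ∨ x = -1 := by
  let _ : Invertible (2 : ZMod 7) := invertibleOfNonzero (by decide)
  obtain ⟨c, hc⟩ := H13.exists_algebraMap_of_contractLeft (x := x.1) fun d => by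
    obtain ⟨w, hw⟩ := nd_Q7.exists_polar_eq_dual d
    have : d = polarBilin (Q7 n) w := LinearMap.ext fun v => (hw v).symm
    rw [this, ← H13.ι_mul_sub_involute_mul, h.1]; exact sub_self _
  have h1 := h.2
  rw [hc, reverse.commutes, ← map_mul, ← map_one (algebraMap (ZMod 7) _)] at h1
  rcases mul_self_eq_one_iff.1 ((algebraMap (ZMod 7) _).injective h1) with rfl | rfl
  · exact Or.inl (Units.ext (by simpa using hc))
  · exact Or.inr (Units.ext (by simpa using hc))

theorem neg_one_ne_one7 : (-1 : (CliffordAlgebra (Q7 n))ˣ) ≠ 1 := fun h => by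
  let _ : Invertible (2 : ZMod 7) := invertibleOfNonzero (by decide)
  have := congrArg Units.val h
  rw [Units.val_neg, Units.val_one, ← map_one (algebraMap (ZMod 7) _), ← map_neg] at this
  exact absurd ((algebraMap (ZMod 7) _).injective this) (by decide)

/-- the double cover of the alternating group -/
noncomputable def PinA (n : ℕ) : Subgroup ((CliffordAlgebra (Q7 n))ˣ × alternatingGroup (Fin n)) :=
  (PinS n).comap ((MonoidHom.id _).prodMap (Subgroup.subtype _))

/-- the covering map -/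
noncomputable def πA (n : ℕ) : PinA n →* alternatingGroup (Fin n) := (MonoidHom.snd _ _).comp (PinA n).subtype

/-- the central involution -/
noncomputable def zA (n : ℕ) : PinA n := ⟨(-1, 1), fun w => by simp [Perm.one_def], by simp⟩

theorem πA_surj : Function.Surjective (πA n) := fun σ =>
  let ⟨x, h⟩ := exists_PinS σ.1; ⟨⟨(x, σ), h⟩, rfl⟩

theorem zA_ne : zA n ≠ 1 := fun h => neg_one_ne_one7 (congrArg (·.1.1) h)

theorem card_ker_πA : Nat.card (πA n).ker = 2 := by
  refine (Nat.card_eq_two_iff' 1).2 ⟨⟨zA n, rfl⟩, fun h => zA_ne (congrArg Subtype.val h), ?_⟩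
  rintro ⟨⟨⟨x, σ⟩, hx⟩, h⟩ h1
  obtain rfl : σ = 1 := h
  rcases eq_of_mem_PinS hx with rfl | rfl
  · exact absurd rfl h1
  · rfl

instance instFinitePinA : Finite (PinA n) :=
  have : Finite (πA n).ker := Nat.finite_of_card_ne_zero (by rw [card_ker_πA]; norm_num)
  (MonoidHom.finite_iff_finite_ker_range (πA n)).2 ⟨this, inferInstance⟩

/-- the lift of a double transposition -/
noncomputable def tt7 {i j k l : Fin n} (h : i ≠ j) (h' : k ≠ l) : PinA n :=
  ⟨(t7 h * t7 h', ⟨swap i j * swap k l, by simp [h, h']⟩), mul_mem (t7_mem h) (t7_mem h')⟩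

theorem πA_tt7 {i j k l : Fin n} (h : i ≠ j) (h' : k ≠ l) :
    (πA n (tt7 h h')).1 = swap i j * swap k l := rfl

theorem PinA_ext {x y : PinA n} (h : x.1.1 = y.1.1) (h' : (πA n x).1 = (πA n y).1) : x = y :=
  Subtype.ext (Prod.ext h (Subtype.ext h'))

theorem sq_anti {M : Type*} [Monoid M] [HasDistribNeg M] {a b : M} (ha : a * a = 1)
    (hb : b * b = 1) (h : a * b = -(b * a)) : (a * b) ^ 2 = -1 := by
  rw [pow_two]; nth_rewrite 1 [h]
  rw [neg_mul, mul_assoc, ← mul_assoc a, ha, one_mul, hb]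

theorem comm_anti {M : Type*} [Monoid M] [HasDistribNeg M] {a b c : M}
    (h : a * b = -(b * a)) (h' : a * c = -(c * a)) : Commute (b * c) a := by
  symm
  rw [Commute, SemiconjBy, ← mul_assoc, h, neg_mul, mul_assoc, h', mul_neg, neg_neg, mul_assoc]

theorem tt7_sq {i j k l : Fin n} (h : i ≠ j) (h' : k ≠ l) (h0 : v7 k l i = v7 k l j)
    (h1 : (swap i j * swap k l) ^ 2 = 1) : tt7 h h' ^ 2 = zA n :=
  PinA_ext (sq_anti (t7_sq h) (t7_sq h') (t7_anti h h' h0)) h1

theorem tt7_comm {i j k l a b c d : Fin n} (h : i ≠ j) (h' : k ≠ l) (e : a ≠ b) (e' : c ≠ d)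
    (h1 : v7 i j a = v7 i j b) (h2 : v7 k l a = v7 k l b) (h3 : v7 i j c = v7 i j d)
    (h4 : v7 k l c = v7 k l d)
    (h5 : swap i j * swap k l * (swap a b * swap c d) = swap a b * swap c d * (swap i j * swap k l)) :
    Commute (tt7 h h') (tt7 e e') :=
  PinA_ext ((comm_anti (t7_anti e h h1) (t7_anti e h' h2)).mul_right
    (comm_anti (t7_anti e' h h3) (t7_anti e' h' h4))).eq h5

theorem zA_sq : zA n ^ 2 = 1 := PinA_ext (by simp [zA]) (by rw [map_pow]; exact one_pow 2)

/-- a lift of order four of an involution prevents splitting -/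
theorem nonsplit_of_sq {H K : Type*} [Group H] [Group K] {θ : H →* K}
    (h : Function.Surjective θ) (h2 : Nat.card θ.ker = 2) (hK : Subgroup.center K = ⊥) {x : H}
    (hx : θ (x ^ 2) = 1) (hx1 : x ^ 2 ≠ 1) : IsNonsplitDoubleCover H K := by
  have hc := center_eq_ker h hK (le_center_of_card_two h2)
  refine ⟨by rw [hc, h2], ⟨(QuotientGroup.quotientMulEquivOfEq hc).trans
    (QuotientGroup.quotientKerEquivOfSurjective θ h)⟩, fun L hL => ?_⟩
  have hi : L.index = 2 := by rw [hL.index_eq_card, hc, h2]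
  exact hx1 (Subgroup.disjoint_def.1 hL.disjoint (hc ▸ hx) (Subgroup.sq_mem_of_index_two hi x))

/-- a central subgroup of order two missing a subgroup of index `2 mod 4` has a complement -/
theorem exists_compl_center {H : Type*} [Group H] [Finite H]
    (h2 : Nat.card (Subgroup.center H) = 2) (L : Subgroup H) (hd : Disjoint (Subgroup.center H) L)
    {k : ℕ} (hi : L.index = 2 * k) (hk : Odd k) :
    ∃ M : Subgroup H, (Subgroup.center H).IsComplement' M := by
  classical
  let _ := Fintype.ofFinite (H ⧸ L)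
  let φ := Perm.sign.comp (MulAction.toPermHom H (H ⧸ L))
  have key : ∀ z ∈ Subgroup.center H, z ≠ 1 → φ z = -1 := fun z hz h1 => by
    have hz2 : z ^ 2 = 1 := by
      have := pow_card_eq_one' (x := (⟨z, hz⟩ : Subgroup.center H))
      rw [h2] at this; exact congrArg Subtype.val this
    have : IsEmpty (Function.fixedPoints (MulAction.toPermHom H (H ⧸ L) z)) := ⟨fun ⟨q, hq⟩ => by
      induction q using QuotientGroup.induction_on with | H g => ?_
      have : (z * g)⁻¹ * g ∈ L := QuotientGroup.eq.1 hq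
      rw [← Subgroup.mem_center_iff.1 hz g, mul_inv_rev, inv_mul_cancel_right, inv_mem_iff] at this
      exact h1 (Subgroup.disjoint_def.1 hd hz this)⟩
    change Perm.sign _ = _
    rw [Perm.sign_of_pow_two_eq_one (by rw [← map_pow, hz2, map_one]), Fintype.card_eq_zero (α := Function.fixedPoints _),
      ← Nat.card_eq_fintype_card, ← Subgroup.index_eq_card, hi, tsub_zero,
      Nat.mul_div_cancel_left _ two_pos, hk.neg_one_pow]
  obtain ⟨⟨z, hz⟩, hz1, -⟩ := (Nat.card_eq_two_iff' (1 : Subgroup.center H)).1 h2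
  have hz1' : z ≠ 1 := fun h => hz1 (Subtype.ext h)
  refine ⟨φ.ker, Subgroup.isComplement'_of_disjoint_and_mul_eq_univ ?_ ?_⟩
  · refine Subgroup.disjoint_def.2 fun {x} hx hx' => by_contra fun h1 => ?_
    rw [MonoidHom.mem_ker, key x hx h1] at hx'
    exact absurd hx' (by decide)
  · refine Set.eq_univ_of_forall fun g => ?_
    rcases Int.units_eq_one_or (φ g) with h | h
    · exact ⟨1, one_mem _, g, h, one_mul g⟩
    · exact ⟨z, hz, z⁻¹ * g, by simp [MonoidHom.mem_ker, h, key z hz hz1'], by simp⟩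

theorem cycleType_of_invol {t : alternatingGroup (Fin n)} (hn : n ≤ 7) (h : t ^ 2 = 1)
    (h1 : t ≠ 1) : t.1.cycleType = {2, 2} := by
  have h2 : t.1 ^ 2 = 1 := congrArg Subtype.val h
  have e := Perm.cycleType_of_pow_prime_eq_one h2
  have s := Perm.sum_cycleType_le t.1
  have g := Perm.sign_of_cycleType t.1
  have z : t.1.cycleType.card ≠ 0 := fun h0 =>
    h1 (Subtype.ext (Perm.card_cycleType_eq_zero.1 h0))
  rw [Perm.mem_alternatingGroup.1 t.2] at g
  generalize t.1.cycleType.card = k at *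
  rw [e, Multiset.sum_replicate, smul_eq_mul] at s g
  rw [Fintype.card_fin] at s
  have : k ≤ 3 := by omega
  interval_cases k
  · exact absurd rfl z
  · exact absurd g (by decide)
  · exact e
  · exact absurd g (by decide)

theorem isConj_of_invol {s t : alternatingGroup (Fin n)} (hn : n ≤ 7) (hs : s ^ 2 = 1)
    (hs1 : s ≠ 1) (ht : t ^ 2 = 1) (ht1 : t ≠ 1) : IsConj s t := by
  obtain ⟨g, hg⟩ := isConj_iff.1 (Perm.isConj_iff_cycleType_eq.2
    ((cycleType_of_invol hn hs hs1).trans (cycleType_of_invol hn ht ht1).symm))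
  rcases Int.units_eq_one_or (Perm.sign g) with h | h
  · exact isConj_iff.2 ⟨⟨g, h⟩, Subtype.ext hg⟩
  · obtain ⟨a, ha⟩ : ∃ a, s.1 a ≠ a := by
      by_contra! h0; exact hs1 (Subtype.ext (Perm.ext h0))
    have h2 : s.1 (s.1 a) = a := by
      have := congrArg (fun x : alternatingGroup (Fin n) => x.1 a) hs
      simpa [pow_two] using this
    have hc : swap a (s.1 a) * s.1 = s.1 * swap a (s.1 a) := by
      rw [Equiv.mul_swap_eq_swap_mul, h2, swap_comm]
    refine isConj_iff.2 ⟨⟨g * swap a (s.1 a), by simp [h, ha.symm]⟩, Subtype.ext ?_⟩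
    change g * swap a (s.1 a) * s.1 * (g * swap a (s.1 a))⁻¹ = _
    rw [mul_assoc g, hc, ← hg]; simp [mul_assoc]

end Cfsg.Agent.H17
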