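import Cfsg.Agent.H12.Lin
import Cfsg.Agent.H2.Kegel
import Cfsg.Agent.H3.Action

/-! The centraliser of a transvection in `SL(5,2)`; involutions with small Sylow centre. -/

namespace Cfsg.Agent.H17

open Matrix

theorem commute_transvection_iff {n R : Type*} [Fintype n] [DecidableEq n] [CommRing R]
    {x : Matrix n n R} {i j : n} : x * transvection i j 1 = transvection i j 1 * x ↔
      (∀ k, k ≠ i → x k i = 0) ∧ (∀ k, k ≠ j → x j k = 0) ∧ x i i = x j j := by
  rw [transvection, mul_add, add_mul, mul_one, one_mul, add_right_inj, ← Matrix.ext_iff]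
  constructor
  · intro h
    refine ⟨fun k hk => ?_, fun k hk => ?_, ?_⟩
    · simpa [hk] using h k j
    · simpa [hk] using (h i k).symm
    · simpa using h i j
  · rintro ⟨h1, h2, h3⟩ a b
    by_cases ha : a = i <;> by_cases hb : b = j <;> simp [ha, hb, h1, h2, h3]

/-- `SL(5,2)` -/
abbrev SL52 := SpecialLinearGroup (Fin 5) (ZMod 2)

/-- the shape of the matrices commuting with the transvection -/
def c5 (A : Matrix (Fin 3) (Fin 3) (ZMod 2)) (v : Fin 7 → ZMod 2) :
    Matrix (Fin 5) (Fin 5) (ZMod 2) :=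
  !![1, v 0, v 1, v 2, v 3; 0, 1, 0, 0, 0; 0, v 4, A 0 0, A 0 1, A 0 2;
    0, v 5, A 1 0, A 1 1, A 1 2; 0, v 6, A 2 0, A 2 1, A 2 2]

theorem det_c5 (A v) : (c5 A v).det = A.det := by
  rw [det_succ_column_zero, Fin.sum_univ_five, det_succ_row_zero, Fin.sum_univ_four,
    det_fin_three, det_fin_three A]
  simp [c5, Fin.succAbove]

theorem c5_pow (a b c d e f g : ZMod 2) : c5 1 ![a, b, c, d, e, f, g] ^ (2 ^ 2) = 1 := by
  have h2 : (2 : ZMod 2) = 0 := rfl
  have h : ∀ a b c d e f g : ZMod 2, c5 1 ![a, b, c, d, e, f, g] ^ 2 =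
      c5 1 ![b * e + c * f + d * g, 0, 0, 0, 0, 0, 0] := fun a b c d e f g => by
    ext i j
    fin_cases i <;> fin_cases j <;>
      simp [c5, sq, mul_apply, Fin.sum_univ_five, CharTwo.add_self_eq_zero, add_assoc]
  rw [sq 2, pow_mul, h, h]
  ext i j
  fin_cases i <;> fin_cases j <;> simp [c5]

variable {s : SL52} (hs : (s : Matrix (Fin 5) (Fin 5) (ZMod 2)) = transvection 0 1 1)
include hs

theorem mem_cent5 {g : SL52} : g ∈ Subgroup.centralizer ({s} : Set SL52) ↔
    (∀ k, k ≠ 0 → g k 0 = 0) ∧ (∀ k, k ≠ 1 → g 1 k = 0) ∧ g 0 0 = g 1 1 := by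
  rw [Subgroup.mem_centralizer_singleton_iff, ← commute_transvection_iff, ← hs]
  exact Subtype.ext_iff

theorem cent5_diag {g : SL52} (h : g ∈ Subgroup.centralizer ({s} : Set SL52)) : g 0 0 = 1 := by
  by_contra h0
  have h1 : g 0 0 = 0 := (by decide : ∀ a : ZMod 2, a ≠ 1 → a = 0) _ h0
  have := g.2
  rw [det_eq_zero_of_column_eq_zero 0 fun k => by
    by_cases hk : k = 0
    · rw [hk]; exact h1
    · exact ((mem_cent5 hs).1 h).1 k hk] at this
  exact zero_ne_one this

theorem cent5_eq {g : SL52} (h : g ∈ Subgroup.centralizer ({s} : Set SL52)) :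
    g.1 = c5 (g.1.submatrix (fun i => i.succ.succ) fun i => i.succ.succ)
      ![g 0 1, g 0 2, g 0 3, g 0 4, g 2 1, g 3 1, g 4 1] := by
  obtain ⟨h1, h2, h3⟩ := (mem_cent5 hs).1 h
  have h4 := cent5_diag hs h
  ext i j
  fin_cases i <;> fin_cases j <;>
    first | rfl | exact h4 | exact h3 ▸ h4 | exact h1 _ (by decide) | exact h2 _ (by decide)

theorem card_cent5 : Nat.card (Subgroup.centralizer ({s} : Set SL52)) = 21504 := by
  let e : SpecialLinearGroup (Fin 3) (ZMod 2) × (Fin 7 → ZMod 2) ≃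
      Subgroup.centralizer ({s} : Set SL52) :=
    { toFun p := ⟨⟨c5 p.1.1 p.2, (det_c5 _ _).trans p.1.2⟩, (mem_cent5 hs).2
        ⟨fun k hk => by fin_cases k <;> first | rfl | exact absurd rfl hk,
          fun k hk => by fin_cases k <;> first | rfl | exact absurd rfl hk, rfl⟩⟩
      invFun g := (⟨g.1.1.submatrix (fun i => i.succ.succ) fun i => i.succ.succ,
        (det_c5 _ _).symm.trans ((congrArg det (cent5_eq hs g.2)).symm.trans g.1.2)⟩,
        ![g.1 0 1, g.1 0 2, g.1 0 3, g.1 0 4, g.1 2 1, g.1 3 1, g.1 4 1])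
      left_inv p := Prod.ext (Subtype.ext (by ext i j; fin_cases i <;> fin_cases j <;> rfl))
        (by ext i; fin_cases i <;> rfl)
      right_inv g := Subtype.ext (Subtype.ext (cent5_eq hs g.2).symm) }
  have := H12.card_SL_fin (F := ZMod 2) (q := 2) (by simp) 3 (by norm_num)
  rw [← Nat.card_congr e, Nat.card_prod, Nat.card_fun]
  simp [Fin.prod_univ_succ, Finset.prod_range_succ] at this ⊢
  omega

/-- the action on the middle section -/
def ρ5 : Subgroup.centralizer ({s} : Set SL52) →* Matrix (Fin 3) (Fin 3) (ZMod 2) where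
  toFun g := g.1.1.submatrix (fun i => i.succ.succ) fun i => i.succ.succ
  map_one' := by ext i j; fin_cases i <;> fin_cases j <;> rfl
  map_mul' g h := by
    ext i j
    change ∑ k : Fin 5, g.1 i.succ.succ k * h.1 k j.succ.succ =
      ∑ k : Fin 3, g.1 i.succ.succ k.succ.succ * h.1 k.succ.succ j.succ.succ
    rw [Fin.sum_univ_succ, Fin.sum_univ_succ, ((mem_cent5 hs).1 g.2).1 _ (Fin.succ_ne_zero _),
      show (0 : Fin 4).succ = 1 from rfl,
      ((mem_cent5 hs).1 h.2).2.1 _ fun e => Fin.succ_ne_zero _ (Fin.succ_injective _ e)]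
    simp

theorem isPGroup_ker_ρ5 : IsPGroup 2 (ρ5 hs).ker := fun g => ⟨2, Subtype.ext (Subtype.ext
    (Subtype.ext (by
  have h1 := cent5_eq hs g.1.2
  rw [show g.1.1.1.submatrix (fun i : Fin 3 => i.succ.succ) (fun i : Fin 3 => i.succ.succ) = 1
    from g.2] at h1
  change g.1.1.1 ^ (2 ^ 2) = 1
  rw [h1]
  exact c5_pow _ _ _ _ _ _ _)))⟩

theorem eq_of_commute_ker_ρ5 {x : Subgroup.centralizer ({s} : Set SL52)}
    (h : ∀ y ∈ (ρ5 hs).ker, x * y = y * x) : x.1 = 1 ∨ x.1 = s := by
  have key : ∀ i j : Fin 5, i ≠ j → j ≠ 0 → i ≠ 1 → (i = 0 ∨ j = 1) →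
      (∀ k, k ≠ i → x.1 k i = 0) ∧ (∀ k, k ≠ j → x.1 j k = 0) ∧ x.1 i i = x.1 j j := by
    intro i j hij hj hi h0
    refine commute_transvection_iff.1 (congrArg (·.1.1) (h ⟨⟨transvection i j 1,
      det_transvection_of_ne i j hij 1⟩, (mem_cent5 hs).2 ?_⟩ ?_))
    · revert i j; decide
    · change Matrix.submatrix (transvection i j 1) _ _ = 1
      revert i j; decide
  obtain ⟨a1, a2, a3⟩ := key 0 1 (by decide) (by decide) (by decide) (by decide)
  obtain ⟨-, b2, b3⟩ := key 0 2 (by decide) (by decide) (by decide) (by decide)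
  obtain ⟨-, c2, c3⟩ := key 0 3 (by decide) (by decide) (by decide) (by decide)
  obtain ⟨-, d2, d3⟩ := key 0 4 (by decide) (by decide) (by decide) (by decide)
  have e1 := (key 2 1 (by decide) (by decide) (by decide) (by decide)).1 0 (by decide)
  have e2 := (key 3 1 (by decide) (by decide) (by decide) (by decide)).1 0 (by decide)
  have e3 := (key 4 1 (by decide) (by decide) (by decide) (by decide)).1 0 (by decide)
  have h4 := cent5_diag hs x.2
  have : x.1.1 = transvection 0 1 (x.1 0 1) := by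
    ext i j
    rw [h4] at a3 b3 c3 d3
    fin_cases i <;> fin_cases j <;>
      simp [transvection, a1, a2, b2, c2, d2, e1, e2, e3, h4, ← a3, ← b3, ← c3, ← d3]
  rcases (by decide : ∀ a : ZMod 2, a = 0 ∨ a = 1) (x.1 0 1) with h0 | h0
  · exact Or.inl (Subtype.ext (by rw [this, h0, transvection_zero]; rfl))
  · exact Or.inr (Subtype.ext (by rw [this, h0, hs]))

omit hs

/-- a Sylow subgroup of `C(z)` whose centre is `⟨z⟩` is a Sylow subgroup of the group -/
theorem sylowIn_top_of_center {G : Type*} [Group G] [Finite G] {z : G} (hz : orderOf z = 2)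
    {T : Subgroup G} (hT : H3.SylowIn 2 T (Subgroup.centralizer {z}))
    (h : ∀ x ∈ T, (∀ y ∈ T, x * y = y * x) → x = 1 ∨ x = z) : H3.SylowIn 2 T ⊤ := by
  have hzT : z ∈ T := by
    have h1 : IsPGroup 2 (Subgroup.zpowers z) :=
      IsPGroup.of_card (n := 1) (by rw [Nat.card_zpowers, hz, pow_one])
    obtain ⟨g, hg, h2⟩ := hT.exists_conj_le h1
      (Subgroup.zpowers_le.2 (Subgroup.mem_centralizer_singleton_iff.2 rfl))
    have := h2 (Subgroup.smul_mem_pointwise_smul _ _ _ (Subgroup.mem_zpowers z))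
    rwa [MulAut.smul_def, MulAut.conj_apply, Subgroup.mem_centralizer_singleton_iff.1 hg,
      mul_inv_cancel_right] at this
  refine H2.sylowIn_of_normalizer_le hT le_top fun g hg => ?_
  have hg' := Subgroup.mem_normalizer_iff.1 hg.2
  rcases h _ ((hg' z).1 hzT) (fun y hy => by
    have := Subgroup.mem_centralizer_singleton_iff.1 (hT.le ((hg' (g⁻¹ * y * g)).2 (by
      simpa [mul_assoc] using hy)))
    calc g * z * g⁻¹ * y = g * (z * (g⁻¹ * y * g)) * g⁻¹ := by group
      _ = _ := by rw [← this]; group) with h1 | h1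
  · exact absurd (by simpa using h1 : z = 1) fun e => by simp [e] at hz
  · exact Subgroup.mem_centralizer_singleton_iff.2 (mul_inv_eq_iff_eq_mul.1 h1)

end Cfsg.Agent.H17
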