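import Cfsg.Agent.H17.Fp2

/-! Even permutations as products `a * a'` with `a' ~ a⁻¹` and `a` having two 2-cycles (for S2493). -/

set_option autoImplicit false
set_option linter.style.haveILetI false
set_option linter.unusedSectionVars false

namespace Cfsg.Agent.H17.Dc

open Equiv Equiv.Perm

variable {α : Type*} [Fintype α] [DecidableEq α]

def Fac (g : Perm α) (d : ℤ) : Prop :=
  ∃ s t : Perm α, s * s = 1 ∧ t * t = 1 ∧ g = s * t ∧ s.support ≤ g.support ∧ t.support ≤ g.support ∧
    (s.support.card : ℤ) = t.support.card + d ∧ (g ≠ 1 → ∃ x ∈ g.support, s x = x ∨ t x = x)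

theorem Fac.mul {g h : Perm α} {d e : ℤ} (hd : Perm.Disjoint g h) (h1 : Fac g d) (h2 : Fac h e) :
    Fac (g * h) (d + e) := by
  obtain ⟨s, t, s2, t2, hg, sg, tg, c1, f1⟩ := h1
  obtain ⟨s', t', s2', t2', hh, sg', tg', c1', f1'⟩ := h2
  have d1 := hd.mono sg sg'
  have d2 := hd.mono tg tg'
  have d3 := hd.mono tg sg'
  refine ⟨s * s', t * t', ?_, ?_, ?_, ?_, ?_, ?_, fun hne => ?_⟩
  · rw [mul_assoc, ← mul_assoc s', ← d1.commute.eq, mul_assoc, s2', mul_one, s2]
  · rw [mul_assoc, ← mul_assoc t', ← d2.commute.eq, mul_assoc, t2', mul_one, t2]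
  · rw [hg, hh, mul_assoc, mul_assoc, ← mul_assoc t, d3.commute.eq, mul_assoc]
  · rw [d1.support_mul, hd.support_mul]; exact Finset.union_subset_union sg sg'
  · rw [d2.support_mul, hd.support_mul]; exact Finset.union_subset_union tg tg'
  · rw [d1.card_support_mul, d2.card_support_mul]; push_cast; linarith
  · rw [hd.support_mul]
    have hdis := hd.disjoint_support
    by_cases hg1 : g = 1
    · obtain ⟨x, hx, hx'⟩ := f1' (fun h0 => hne (by rw [hg1, h0, one_mul]))
      have hxg : x ∉ g.support := fun h0 => Finset.disjoint_left.1 hdis h0 hx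
      have a1 : s x = x := notMem_support.1 fun h0 => hxg (sg h0)
      have a2 : t x = x := notMem_support.1 fun h0 => hxg (tg h0)
      refine ⟨x, Finset.mem_union_right _ hx, hx'.imp (fun h0 => ?_) (fun h0 => ?_)⟩
      · rw [Perm.mul_apply, h0, a1]
      · rw [Perm.mul_apply, h0, a2]
    · obtain ⟨x, hx, hx'⟩ := f1 hg1
      have hxg : x ∉ h.support := fun h0 => Finset.disjoint_left.1 hdis hx h0
      have a1 : s' x = x := notMem_support.1 fun h0 => hxg (sg' h0)
      have a2 : t' x = x := notMem_support.1 fun h0 => hxg (tg' h0)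
      refine ⟨x, Finset.mem_union_left _ hx, hx'.imp (fun h0 => ?_) (fun h0 => ?_)⟩
      · rw [Perm.mul_apply, a1, h0]
      · rw [Perm.mul_apply, a2, h0]

theorem cyc_model {σ : Perm α} (h : σ.IsCycle) :
    ∃ (k : ℕ) (_ : NeZero k) (e : ZMod k ↪ α), σ.support = Finset.univ.map e ∧ ∀ i, σ (e i) = e (i + 1) := by
  obtain ⟨x, hx, -⟩ := id h
  have hpos : 0 < Function.minimalPeriod σ x :=
    Function.minimalPeriod_pos_of_mem_periodicPts (σ.injective.mem_periodicPts x)
  obtain ⟨k, hper⟩ : ∃ k, Function.minimalPeriod σ x = k := ⟨_, rfl⟩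
  haveI : NeZero k := ⟨by omega⟩
  have key : ∀ j : ℕ, σ^[(j : ZMod k).val] x = σ^[j] x := by
    intro j
    rw [ZMod.val_natCast, ← hper, Function.iterate_mod_minimalPeriod_eq]
  refine ⟨k, inferInstance, ⟨fun i => σ^[i.val] x, fun i j h => ?_⟩, ?_, fun i => ?_⟩
  · exact ZMod.val_injective _ ((Function.iterate_eq_iterate_iff_of_lt_minimalPeriod
      (by rw [hper]; exact ZMod.val_lt i) (by rw [hper]; exact ZMod.val_lt j)).1 h)
  · ext y
    rw [Finset.mem_map, mem_support]
    constructor
    · intro hy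
      obtain ⟨j, hj⟩ := h.exists_pow_eq hx hy
      exact ⟨(j : ZMod k), Finset.mem_univ _, (key j).trans (by rw [← Perm.coe_pow]; exact hj)⟩
    · rintro ⟨i, -, rfl⟩
      change σ (σ^[i.val] x) ≠ σ^[i.val] x
      rw [← Perm.coe_pow]
      exact mem_support.1 (pow_apply_mem_support.2 (mem_support.2 hx))
  · change σ (σ^[i.val] x) = σ^[(i + 1).val] x
    have := key (i.val + 1)
    rw [Nat.cast_succ, ZMod.natCast_zmod_val] at this
    rw [this, Function.iterate_succ_apply']

theorem fac_cyc {σ : Perm α} {k : ℕ} [NeZero k] (e : ZMod k ↪ α) (hs : σ.support = Finset.univ.map e)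
    (he : ∀ i, σ (e i) = e (i + 1)) (c c' : ZMod k) (hc : c - c' = 1) (h0 : c = 0 ∨ c' = 0) (d : ℤ)
    (hd : ((Perm.support (Equiv.subLeft c)).card : ℤ) = (Perm.support (Equiv.subLeft c')).card + d) :
    Fac σ d := by
  classical
  let Φ : Perm (ZMod k) →* Perm α := extendDomainHom (Function.Embedding.toEquivRange e)
  have h1 : ∀ τ i, Φ τ (e i) = e (τ i) := fun τ i => Perm.viaFintypeEmbedding_apply_image τ e i
  have h2 : ∀ τ y, y ∉ Set.range e → Φ τ y = y := fun τ y hy =>
    Perm.viaFintypeEmbedding_apply_notMem_range τ e hy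
  have h3 : ∀ τ, (Φ τ).support ≤ σ.support := by
    intro τ y hy
    rw [hs]
    by_contra h
    exact mem_support.1 hy (h2 τ y (by rintro ⟨i, rfl⟩; simp at h))
  have h4 : ∀ τ, (Φ τ).support.card = τ.support.card := fun τ => card_support_extend_domain _
  have h5 : ∀ a : ZMod k, Φ (Equiv.subLeft a) * Φ (Equiv.subLeft a) = 1 := by
    intro a
    rw [← map_mul, ← map_one Φ]
    congr 1
    ext i
    simp [Perm.mul_apply]
  refine ⟨Φ (Equiv.subLeft c), Φ (Equiv.subLeft c'), h5 c, h5 c', ?_, h3 _, h3 _, by rw [h4, h4, hd],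
    fun _ => ⟨e 0, by rw [hs]; simp, h0.imp (fun h => ?_) (fun h => ?_)⟩⟩
  · ext y
    by_cases hy : y ∈ Set.range e
    · obtain ⟨i, rfl⟩ := hy
      rw [Perm.mul_apply, h1, h1, he]
      congr 1
      simp only [Equiv.subLeft_apply]
      rw [← hc]; ring
    · rw [Perm.mul_apply, h2 _ _ hy, h2 _ _ hy]
      refine notMem_support.1 fun h => hy ?_
      rw [hs] at h
      obtain ⟨i, -, rfl⟩ := Finset.mem_map.1 h
      exact ⟨i, rfl⟩
  · rw [h1, h]; simp
  · rw [h1, h]; simp

theorem supp_odd {k : ℕ} [NeZero k] (hk : Odd k) :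
    (Perm.support (Equiv.subLeft (1 : ZMod k))).card = (Perm.support (Equiv.subLeft (0 : ZMod k))).card := by
  obtain ⟨j, hj⟩ := hk
  have h2 : ((j : ZMod k) + 1) + (j + 1) = 1 := by
    have : ((2 * j + 1 : ℕ) : ZMod k) = 0 := by rw [← hj]; exact ZMod.natCast_self k
    push_cast at this
    linear_combination this
  rw [← card_support_conj (σ := Equiv.addRight ((j : ZMod k) + 1)) (τ := Equiv.subLeft (0 : ZMod k))]
  congr 2
  ext i
  simp only [Perm.mul_apply, Equiv.subLeft_apply, Perm.coe_inv, Equiv.addRight_symm, Equiv.coe_addRight]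
  linear_combination -h2

theorem supp_even {k : ℕ} [NeZero k] (hk : Even k) (c : ZMod k) (hc : c = 1 ∨ c = -1) :
    (Perm.support (Equiv.subLeft c)).card = (Perm.support (Equiv.subLeft (0 : ZMod k))).card + 2 := by
  obtain ⟨j, hj⟩ := hk
  have hk0 : k ≠ 0 := NeZero.ne k
  have h1 : Perm.support (Equiv.subLeft c) = Finset.univ := by
    ext i
    simp only [mem_support, Equiv.subLeft_apply, Finset.mem_univ, iff_true]
    intro h
    have h2 : c = 2 * i := by linear_combination h
    have h3 := congrArg (ZMod.castHom (show 2 ∣ k from ⟨j, by omega⟩) (ZMod 2)) h2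
    rw [map_mul, map_ofNat, show (2 : ZMod 2) = 0 from rfl, zero_mul] at h3
    rcases hc with rfl | rfl
    · rw [map_one] at h3; exact absurd h3 (by decide)
    · rw [map_neg, map_one] at h3; exact absurd h3 (by decide)
  have hjv : ((j : ℕ) : ZMod k).val = j := ZMod.val_cast_of_lt (by omega)
  have hj0 : (0 : ZMod k) ≠ (j : ZMod k) := by
    intro h
    rw [← h, ZMod.val_zero] at hjv
    omega
  have h2 : Perm.support (Equiv.subLeft (0 : ZMod k)) = Finset.univ \ {0, (j : ZMod k)} := by
    ext i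
    simp only [mem_support, Equiv.subLeft_apply, zero_sub, Finset.mem_sdiff, Finset.mem_univ, true_and,
      Finset.mem_insert, Finset.mem_singleton, Ne, ZMod.neg_eq_self_iff]
    refine not_congr (or_congr Iff.rfl ⟨fun h => ?_, fun h => ?_⟩)
    · apply ZMod.val_injective
      rw [hjv]; omega
    · rw [h, hjv]; omega
  rw [h1, h2, Finset.card_sdiff_of_subset (Finset.subset_univ _), Finset.card_pair hj0,
    Finset.card_univ, ZMod.card]
  omega

theorem fac (g : Perm α) : (sign g = 1 → Fac g 0) ∧ (sign g = -1 → Fac g 2 ∧ Fac g (-2)) := by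
  induction g using cycle_induction_on with
  | base_one =>
    refine ⟨fun _ => ⟨1, 1, by simp, by simp, by simp, le_rfl, le_rfl, by simp, fun h => absurd rfl h⟩,
      fun h => absurd h (by simp)⟩
  | base_cycles σ hσ =>
    obtain ⟨k, _, e, hs, he⟩ := cyc_model hσ
    have hsg := hσ.sign
    rw [hs, Finset.card_map, Finset.card_univ, ZMod.card] at hsg
    rcases Nat.even_or_odd k with hk | hk
    · rw [hk.neg_one_pow] at hsg
      refine ⟨fun h => absurd (hsg.symm.trans h) (by decide), fun _ => ⟨?_, ?_⟩⟩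
      · exact fac_cyc e hs he 1 0 (by simp) (Or.inr rfl) 2 (by rw [supp_even hk 1 (Or.inl rfl)]; simp)
      · exact fac_cyc e hs he 0 (-1) (by simp) (Or.inl rfl) (-2)
          (by rw [supp_even hk (-1) (Or.inr rfl)]; simp)
    · rw [hk.neg_one_pow, neg_neg] at hsg
      refine ⟨fun _ => ?_, fun h => absurd (hsg.symm.trans h) (by decide)⟩
      exact fac_cyc e hs he 1 0 (by simp) (Or.inr rfl) 0 (by rw [supp_odd hk]; simp)
  | induction_disjoint σ τ hd _ h1 h2 =>
    rw [map_mul]
    rcases Int.units_eq_one_or (sign σ) with a | a <;> rcases Int.units_eq_one_or (sign τ) with b | b <;>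
      rw [a, b]
    · exact ⟨fun _ => by simpa using (h1.1 a).mul hd (h2.1 b), fun h => absurd h (by decide)⟩
    · exact ⟨fun h => absurd h (by decide), fun _ => ⟨by simpa using (h1.1 a).mul hd (h2.2 b).1,
        by simpa using (h1.1 a).mul hd (h2.2 b).2⟩⟩
    · exact ⟨fun h => absurd h (by decide), fun _ => ⟨by simpa using (h1.2 a).1.mul hd (h2.1 b),
        by simpa using (h1.2 a).2.mul hd (h2.1 b)⟩⟩
    · exact ⟨fun _ => by simpa using (h1.2 a).1.mul hd (h2.2 b).2, fun h => absurd h (by decide)⟩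

def Nice (g : Perm α) : Prop :=
  ∃ (a a' : Perm α) (p q r s : α), p ≠ q ∧ p ≠ r ∧ p ≠ s ∧ q ≠ r ∧ q ≠ s ∧ r ≠ s ∧
    a p = q ∧ a q = p ∧ a r = s ∧ a s = r ∧ sign a = 1 ∧ IsConj a⁻¹ a' ∧ g = a * a'

theorem inv_app {s : Perm α} (h : s * s = 1) (x : α) : s (s x) = x := by
  rw [← Perm.mul_apply, h]; rfl

theorem two_swaps {s : Perm α} (h : s * s = 1) (h1 : s ≠ 1) (h2 : sign s = 1) :
    ∃ p r, s p ≠ p ∧ s r ≠ r ∧ r ≠ p ∧ r ≠ s p := by
  obtain ⟨p, hp⟩ : ∃ p, s p ≠ p := by
    by_contra h0
    push Not at h0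
    exact h1 (Equiv.ext h0)
  by_contra h0
  push Not at h0
  have : s = swap p (s p) := by
    ext y
    by_cases y1 : y = p
    · rw [y1, swap_apply_left]
    by_cases y2 : y = s p
    · rw [y2, swap_apply_right, inv_app h]
    rw [swap_apply_of_ne_of_ne y1 y2]
    by_contra y3
    exact y2 (h0 p y hp y3 y1)
  rw [this, sign_swap hp.symm] at h2
  exact absurd h2 (by decide)

theorem outside (h5 : 5 ≤ Fintype.card α) (a b c : α) :
    ∃ p q, p ≠ q ∧ p ≠ a ∧ p ≠ b ∧ p ≠ c ∧ q ≠ a ∧ q ≠ b ∧ q ≠ c := by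
  have hc : 1 < (Finset.univ \ {a, b, c}).card := by
    rw [Finset.card_sdiff_of_subset (Finset.subset_univ _), Finset.card_univ]
    have : ({a, b, c} : Finset α).card ≤ 3 := Finset.card_le_three
    omega
  obtain ⟨y, hy, y', hy', hne⟩ := Finset.one_lt_card.1 hc
  simp only [Finset.mem_sdiff, Finset.mem_univ, true_and, Finset.mem_insert, Finset.mem_singleton,
    not_or] at hy hy'
  exact ⟨y, y', hne, hy.1, hy.2.1, hy.2.2, hy'.1, hy'.2.1, hy'.2.2⟩

theorem peel {s : Perm α} (h : s * s = 1) {a : α} (ha : s a ≠ a) :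
    ∃ s0 : Perm α, s0 * s0 = 1 ∧ s = swap a (s a) * s0 ∧ s0 a = a ∧ s0 (s a) = s a ∧
      (∀ y, s y = y → s0 y = y) ∧ s.support.card = s0.support.card + 2 ∧ sign s0 = -sign s := by
  have e1 : (swap a (s a) * s) a = a := by simp
  have e2 : (swap a (s a) * s) (s a) = s a := by simp [inv_app h]
  have hd : Perm.Disjoint (swap a (s a)) (swap a (s a) * s) := by
    intro y
    by_cases y1 : y = a
    · right; rw [y1, e1]
    by_cases y2 : y = s a
    · right; rw [y2, e2]
    left; exact swap_apply_of_ne_of_ne y1 y2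
  refine ⟨swap a (s a) * s, ?_, by simp, e1, e2, fun y hy => ?_, ?_, by simp [ha.symm]⟩
  · ext y
    have := inv_app h
    have hi := s.injective
    simp only [Perm.mul_apply, swap_apply_def, Perm.one_apply]
    grind
  · rw [Perm.mul_apply, hy]
    exact swap_apply_of_ne_of_ne (fun h0 => ha (h0 ▸ hy)) (fun h0 => ha (by
      rw [h0, inv_app h] at hy; exact hy.symm))
  · have := hd.card_support_mul
    rw [swap_mul_self_mul, card_support_swap ha.symm] at this
    omega

theorem nice (h5 : 5 ≤ Fintype.card α) (g : Perm α) (hg : sign g = 1) : Nice g := by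
  by_cases hg1 : g = 1
  · haveI : Nonempty α := Fintype.card_pos_iff.1 (by omega)
    obtain ⟨x⟩ := ‹Nonempty α›
    obtain ⟨p, q, h1, -⟩ := outside h5 x x x
    obtain ⟨r, s, h2, h3, h4, -, h6, h7, -⟩ := outside h5 p q q
    refine ⟨swap p q * swap r s, (swap p q * swap r s)⁻¹, p, q, r, s, h1, h3.symm, h6.symm, h4.symm,
      h7.symm, h2, ?_, ?_, ?_, ?_, by simp [h1, h2], IsConj.refl _, by rw [hg1, mul_inv_cancel]⟩ <;>
    simp only [Perm.mul_apply, swap_apply_def] <;> grind
  obtain ⟨s, t, s2, t2, hst, sg, tg, hc, hx⟩ := (fac g).1 hg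
  have hc : s.support.card = t.support.card := by omega
  have hsi : s⁻¹ = s := inv_eq_of_mul_eq_one_right s2
  have hsign : sign t = sign s := by
    rw [hst, map_mul] at hg
    rcases Int.units_eq_one_or (sign s) with a | a <;> rcases Int.units_eq_one_or (sign t) with b | b <;>
      simp_all
  rcases Int.units_eq_one_or (sign s) with hs | hs
  · have s1 : s ≠ 1 := by
      rintro rfl
      rw [support_one, Finset.card_empty, eq_comm, card_support_eq_zero] at hc
      exact hg1 (by rw [hst, hc, one_mul])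
    have t1 : t ≠ 1 := by
      rintro rfl
      rw [support_one, Finset.card_empty, card_support_eq_zero] at hc
      exact s1 hc
    obtain ⟨p, r, h1, h2, h3, h4⟩ := two_swaps s2 s1 hs
    refine ⟨s, t, p, s p, r, s r, h1.symm, h3.symm, fun h => h4 ?_, h4.symm,
      fun h => h3 (s.injective h).symm, h2.symm, rfl, inv_app s2 p, rfl, inv_app s2 r, hs, ?_, hst⟩
    · rw [h, inv_app s2]
    · rw [hsi]
      exact Fp.conj_of Nat.prime_two (by rw [pow_two, s2]) s1 (by rw [pow_two, t2]) t1 hc
  · have hne : s.support ≠ t.support := by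
      intro h
      obtain ⟨x, hx1, hx2⟩ := hx hg1
      have h1 : g.support ≤ s.support := by
        rw [hst]
        refine (support_mul_le s t).trans ?_
        rw [← h, sup_idem]
      rcases hx2 with h2 | h2
      · exact mem_support.1 (h1 hx1) h2
      · exact mem_support.1 (h ▸ h1 hx1 : x ∈ t.support) h2
    obtain ⟨f', f1, f2⟩ : ∃ f', s f' ≠ f' ∧ t f' = f' := by
      by_contra h
      push Not at h
      exact hne (Finset.eq_of_subset_of_card_le (fun y hy => mem_support.2 (h y (mem_support.1 hy))) hc.ge)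
    obtain ⟨f, f3, f4⟩ : ∃ f, t f ≠ f ∧ s f = f := by
      by_contra h
      push Not at h
      exact hne (Finset.eq_of_subset_of_card_le (fun y hy => mem_support.2 (h y (mem_support.1 hy)))
        hc.le).symm
    obtain ⟨s0, a1, a2, a3, a4, a5, a6, a7⟩ := peel s2 f1
    obtain ⟨t0, b1, b2, b3, b4, b5, b6, b7⟩ := peel t2 f3
    have a8 := a5 f f4
    have b8 := b5 f' f2
    have ff : f ≠ f' := fun h => f1 (h ▸ f4)
    have xf : s f' ≠ f := fun h => ff (by rw [← f4] at h; exact (s.injective h).symm)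
    have yf : t f ≠ f' := fun h => ff (by rw [← f2] at h; exact t.injective h)
    rw [hs, neg_neg] at a7
    generalize s f' = x at *
    generalize t f = y at *
    by_cases s1 : s0 = 1
    · have t1 : t0 = 1 := by
        rw [← card_support_eq_zero] at s1 ⊢
        omega
      rw [s1, mul_one] at a2
      rw [t1, mul_one] at b2
      rw [a2, b2] at hst
      by_cases hxy : x = y
      · subst hxy
        obtain ⟨p, q, h1, h2, h3, h4, h6, h7, h8⟩ := outside h5 f f' x
        refine ⟨swap f' x * swap p q, swap p q * swap f x, f', x, p, q, f1.symm, h3.symm, h7.symm,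
          h4.symm, h8.symm, h1, ?_, ?_, ?_, ?_, by simp [h1, f1.symm],
          isConj_iff.2 ⟨swap f f', ?_⟩, by rw [hst, mul_assoc, swap_mul_self_mul]⟩
        all_goals first
          | (simp only [Perm.mul_apply, swap_apply_def]; grind)
          | (ext u; simp only [mul_inv_rev, swap_inv, Perm.mul_apply, swap_apply_def]; grind)
      · refine ⟨swap f' f * swap x y, swap f' y * swap x f, f', f, x, y, ff.symm, f1.symm, yf.symm,
          xf.symm, f3.symm, hxy, ?_, ?_, ?_, ?_, by simp [ff.symm, hxy],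
          isConj_iff.2 ⟨swap f y, ?_⟩, ?_⟩
        all_goals first
          | (simp only [Perm.mul_apply, swap_apply_def]; grind)
          | (rw [hst]; ext u; simp only [mul_inv_rev, swap_inv, Perm.mul_apply, swap_apply_def]; grind)
          | (ext u; simp only [mul_inv_rev, swap_inv, Perm.mul_apply, swap_apply_def]; grind)
    · have t1 : t0 ≠ 1 := by
        intro t1
        rw [← card_support_eq_zero] at s1 t1
        omega
      obtain ⟨p, r, h1, h2, h3, h4⟩ := two_swaps a1 s1 a7
      have key : ∀ u, s0 u ≠ u → (s * swap f f') u = s0 u := by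
        intro u hu
        have u1 : u ≠ f := fun h => hu (h ▸ a8)
        have u2 : u ≠ f' := fun h => hu (h ▸ a3)
        rw [Perm.mul_apply, swap_apply_of_ne_of_ne u1 u2, a2, Perm.mul_apply]
        refine swap_apply_of_ne_of_ne (fun h => u2 (s0.injective (h.trans a3.symm)))
          (fun h => hu ?_)
        have := s0.injective (h.trans a4.symm)
        rw [this, a4]
      have mv : ∀ u, s0 u ≠ u → s0 (s0 u) ≠ s0 u := fun u hu h => hu (s0.injective h)
      refine ⟨s * swap f f', swap f f' * t, p, s0 p, r, s0 r, h1.symm, h3.symm, fun h => h4 ?_, h4.symm,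
        fun h => h3 (s0.injective h).symm, h2.symm, key p h1, ?_, key r h2, ?_, by simp [hs, ff], ?_,
        by rw [hst, mul_assoc, swap_mul_self_mul]⟩
      · rw [h, inv_app a1]
      · rw [key _ (mv p h1), inv_app a1]
      · rw [key _ (mv r h2), inv_app a1]
      · rw [mul_inv_rev, swap_inv, hsi, a2, b2, ← mul_assoc, ← mul_assoc]
        have c1 : IsThreeCycle (swap f f' * swap f' x) := by
          rw [swap_comm f f']; exact isThreeCycle_swap_mul_swap_same ff.symm f1.symm xf.symm
        have c2 : IsThreeCycle (swap f f' * swap f y) :=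
          isThreeCycle_swap_mul_swap_same ff f3.symm yf.symm
        refine Perm.Disjoint.isConj_mul (isConj_iff_cycleType_eq.2 (c1.cycleType.trans c2.cycleType.symm))
          (Fp.conj_of Nat.prime_two (by rw [pow_two, a1]) s1 (by rw [pow_two, b1]) t1 (by omega)) ?_ ?_
        · intro u
          simp only [Perm.mul_apply, swap_apply_def]; grind
        · intro u
          simp only [Perm.mul_apply, swap_apply_def]; grind

end Cfsg.Agent.H17.Dc
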