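import Cfsg.Agent.H17.Dc1
import Cfsg.Agent.L0.PresA1

/-! Commutators in a perfect double cover of an alternating group (S2493). -/

set_option autoImplicit false
set_option linter.unusedSectionVars false

namespace Cfsg.Agent.H17.Dc

open Equiv Equiv.Perm L0

variable {α : Type*} [Fintype α] [DecidableEq α] {G : Type*} [Group G]

structure Cov (π : G →* Perm α) (z : G) : Prop where
  ker : ∀ g, π g = 1 → g = 1 ∨ g = z
  cen : ∀ g, z * g = g * z
  sq : z * z = 1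
  ne : z ≠ 1
  pz : π z = 1
  surj : ∀ σ, sign σ = 1 → ∃ g, π g = σ
  sgn : ∀ g, sign (π g) = 1
  perf : commutator G = ⊤

variable {π : G →* Perm α} {z : G}

theorem Cov.eq_or (h : Cov π z) {x y : G} (e : π x = π y) : x = y ∨ x = z * y := by
  rcases h.ker (x * y⁻¹) (by rw [map_mul, map_inv, e, mul_inv_cancel]) with h1 | h1
  · exact Or.inl (mul_inv_eq_one.1 h1)
  · exact Or.inr (mul_inv_eq_iff_eq_mul.1 h1)

theorem Cov.zsq (h : Cov π z) (x : G) : z * x * (z * x) = x * x := by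
  rw [mul_assoc, ← mul_assoc x, ← h.cen x, ← mul_assoc, ← mul_assoc, h.sq, one_mul]

theorem Cov.lift3 (h : Cov π z) {σ : Perm α} (h1 : sign σ = 1) (h3 : σ ^ 3 = 1) :
    ∃ x, π x = σ ∧ x ^ 3 = 1 := by
  obtain ⟨x, rfl⟩ := h.surj σ h1
  refine ⟨x ^ 4, by rw [map_pow, pow_succ, h3, one_mul], ?_⟩
  rw [← pow_mul, mul_comm, pow_mul]
  rcases h.ker (x ^ 3) (by rw [map_pow, h3]) with e | e <;> rw [e]
  · simp
  · rw [show (4 : ℕ) = 2 * 2 from rfl, pow_mul, pow_two z, h.sq, one_pow]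

theorem Cov.dbl (h : Cov π z) {p q r s : α} (h1 : p ≠ q) (h2 : p ≠ r) (h3 : p ≠ s) (h4 : q ≠ r)
    (h5 : q ≠ s) (h6 : r ≠ s) {x : G} (hx : π x = swap p q * swap r s) : x * x = z := by
  by_contra hne
  have hx2 : x * x = 1 := by
    refine (h.ker _ ?_).resolve_right hne
    rw [map_mul, hx]
    ext u; simp only [Perm.mul_apply, swap_apply_def, Perm.one_apply]; grind
  have all : ∀ a b c d : α, a ≠ b → a ≠ c → a ≠ d → b ≠ c → b ≠ d → c ≠ d →
      ∀ y, π y = swap a b * swap c d → y * y = 1 := by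
    intro a b c d e1 e2 e3 e4 e5 e6 y hy
    obtain ⟨σ, hσ⟩ := Perm.exists_extending_pair ![p, q, r, s] ![a, b, c, d]
      (by intro i j; fin_cases i <;> fin_cases j <;>
            simp [h1, h2, h3, h4, h5, h6, h1.symm, h2.symm, h3.symm, h4.symm, h5.symm, h6.symm])
      (by intro i j; fin_cases i <;> fin_cases j <;>
            simp [e1, e2, e3, e4, e5, e6, e1.symm, e2.symm, e3.symm, e4.symm, e5.symm, e6.symm])
    have s0 : σ p = a := hσ 0
    have s1 : σ q = b := hσ 1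
    have s2 : σ r = c := hσ 2
    have s3 : σ s = d := hσ 3
    have hc : σ * (swap p q * swap r s) * σ⁻¹ = swap a b * swap c d := by
      rw [← s0, ← s1, ← s2, ← s3, swap_apply_apply, swap_apply_apply]; group
    obtain ⟨τ, hτ, hc'⟩ : ∃ τ : Perm α, sign τ = 1 ∧ τ * (swap p q * swap r s) * τ⁻¹ = swap a b * swap c d := by
      rcases Int.units_eq_one_or (sign σ) with e | e
      · exact ⟨σ, e, hc⟩
      · refine ⟨σ * swap p q, by simp [e, h1], ?_⟩
        rw [← hc]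
        have : swap p q * (swap p q * swap r s) * (swap p q)⁻¹ = swap p q * swap r s := by
          ext u; simp only [swap_inv, Perm.mul_apply, swap_apply_def]; grind
        conv_rhs => rw [← this]
        group
    obtain ⟨t, rfl⟩ := h.surj τ hτ
    have e7 : t * x * t⁻¹ * (t * x * t⁻¹) = 1 := by
      rw [show t * x * t⁻¹ * (t * x * t⁻¹) = t * (x * x) * t⁻¹ by group, hx2]; simp
    rcases h.eq_or (x := y) (y := t * x * t⁻¹) (by rw [hy, map_mul, map_mul, map_inv, hx, hc']) with e | e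
    · rw [e, e7]
    · rw [e, h.zsq, e7]
  have ex : ∀ i, ∃ y : G, i ≠ p → i ≠ q → π y = c3 p q i ∧ y ^ 3 = 1 := by
    intro i
    by_cases hi : i ≠ p ∧ i ≠ q
    · obtain ⟨y, hy⟩ := h.lift3 (c3_sign hi.1.symm h1) (c3_cube hi.1.symm h1 hi.2.symm)
      exact ⟨y, fun _ _ => hy⟩
    · exact ⟨1, fun a b => absurd ⟨a, b⟩ hi⟩
  choose y hy using ex
  let K := Subgroup.closure (y '' {i | i ≠ p ∧ i ≠ q})
  have hinj : ∀ g ∈ K, π g = 1 → g = 1 :=
    carm_inj h1 π _ (fun i hi => ⟨hi.1, hi.2, (hy i hi.1 hi.2).1⟩) (fun i hi => (hy i hi.1 hi.2).2)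
      (fun i hi j hj hij => by
        rw [pow_two]
        refine all p i q j hi.1.symm h1 hj.1.symm hi.2 hij hj.2.symm _ ?_
        rw [map_mul, (hy i hi.1 hi.2).1, (hy j hj.1 hj.2).1]
        obtain ⟨i1, i2⟩ := hi
        obtain ⟨j1, j2⟩ := hj
        ext u; simp only [c3, Perm.mul_apply, swap_apply_def]; grind)
  have hsur : ∀ g : G, ∃ k ∈ K, g = k ∨ g = z * k := by
    intro g
    obtain ⟨k, hk, e⟩ := carm_surj h1 π (x := y) (I := {i | i ≠ p ∧ i ≠ q}) (Ω := Set.univ)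
      (fun i _ a b => ⟨⟨a, b⟩, (hy i a b).1⟩) (σ := π g) ⟨h.sgn g, fun t ht => absurd trivial ht⟩
    exact ⟨k, hk, h.eq_or e.symm⟩
  have hle : commutator G ≤ K := by
    rw [commutator_eq_closure, Subgroup.closure_le]
    rintro _ ⟨a, b, rfl⟩
    obtain ⟨k, hk, ea⟩ := hsur a
    obtain ⟨l, hl, eb⟩ := hsur b
    have hm : k * l * k⁻¹ * l⁻¹ ∈ K := K.mul_mem (K.mul_mem (K.mul_mem hk hl) (K.inv_mem hk)) (K.inv_mem hl)
    have c1 : ∀ u v : G, z * u * v * (z * u)⁻¹ = u * v * u⁻¹ := by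
      intro u v
      rw [mul_inv_rev, mul_assoc z, mul_assoc z, h.cen]; group
    have c2 : ∀ u v : G, u * (z * v) * u⁻¹ * (z * v)⁻¹ = u * v * u⁻¹ * v⁻¹ := by
      intro u v
      rw [← mul_assoc u z, ← h.cen u, mul_inv_rev, mul_assoc z, mul_assoc z, mul_assoc z, h.cen]; group
    change a * b * a⁻¹ * b⁻¹ ∈ K
    rcases ea with rfl | rfl <;> rcases eb with rfl | rfl
    · exact hm
    · rw [c2]; exact hm
    · rw [c1]; exact hm
    · rw [c1, c2]; exact hm
  exact h.ne (hinj z (hle (h.perf ▸ Subgroup.mem_top z)) h.pz)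

theorem Cov.comm (h : Cov π z) (Ω : Set α) {C : G} (hC : ∀ t ∈ Ω, π C t = t) {y : G}
    (hy : π y ∈ AltOn Ω) : y * C = C * y := by
  by_cases y1 : π y = 1
  · rcases h.ker y y1 with rfl | rfl
    · simp
    · exact h.cen C
  obtain ⟨p, hp⟩ : ∃ p, π y p ≠ p := by
    by_contra h0
    push Not at h0
    exact y1 (Equiv.ext h0)
  have pO : p ∈ Ω := by
    by_contra h0
    exact hp (hy.2 p h0)
  have qO : π y p ∈ Ω := AltOn_apply hy pO
  generalize π y p = q at hp qO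
  have hle := alt_le hp.symm (L := (Subgroup.centralizer {C}).map π) Ω (fun i hi a b => by
    obtain ⟨x, hx, hx3⟩ := h.lift3 (c3_sign a.symm hp.symm) (c3_cube a.symm hp.symm b.symm)
    refine ⟨x, Subgroup.mem_centralizer_singleton_iff.2 ?_, hx⟩
    rcases h.eq_or (x := C * x * C⁻¹) (y := x) (by
      rw [map_mul, map_mul, map_inv, hx, c3_conj, hC p pO, hC q qO, hC i hi]) with e | e
    · exact (mul_inv_eq_iff_eq_mul.1 e).symm
    · exfalso
      have e1 := congrArg (· ^ 3) e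
      simp only [conj_pow, hx3, mul_one, mul_inv_cancel] at e1
      rw [Commute.mul_pow (h.cen x), hx3, mul_one, pow_succ, pow_two, h.sq, one_mul] at e1
      exact h.ne e1.symm)
  obtain ⟨k, hk, e⟩ := hle hy
  have hk' : k * C = C * k := Subgroup.mem_centralizer_singleton_iff.1 hk
  rcases h.eq_or e.symm with e1 | e1
  · rw [e1, hk']
  · rw [e1, mul_assoc, hk', ← mul_assoc, h.cen C, mul_assoc]

theorem Cov.both (h : Cov π z) (g : G) (hn : Nice (π g)) : ∃ a b : G, a * b * a⁻¹ * b⁻¹ = g := by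
  obtain ⟨a, a', p, q, r, s, h1, h2, h3, h4, h5, h6, e1, e2, e3, e4, hs, hc, hg⟩ := hn
  obtain ⟨b, hb, hb'⟩ : ∃ b : Perm α, sign b = 1 ∧ b * a⁻¹ * b⁻¹ = a' := by
    obtain ⟨b, hb⟩ := isConj_iff.1 hc
    rcases Int.units_eq_one_or (sign b) with e | e
    · exact ⟨b, e, hb⟩
    · refine ⟨b * swap p q, by simp [e, h1], ?_⟩
      have : a * swap p q * a⁻¹ = swap p q := by rw [← swap_apply_apply, e1, e2, swap_comm]
      have h7 : swap p q * a⁻¹ * (swap p q)⁻¹ = a⁻¹ := by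
        rw [mul_inv_eq_iff_eq_mul, eq_inv_mul_iff_mul_eq, ← mul_assoc, this]
      rw [← hb]
      conv_rhs => rw [← h7]
      group
  obtain ⟨A, rfl⟩ := h.surj a hs
  obtain ⟨B, rfl⟩ := h.surj b hb
  obtain ⟨V, hV⟩ := h.surj (swap p q * swap r s) (by simp [h1, h6])
  obtain ⟨C, hC⟩ := h.surj (swap p r * swap q s) (by simp [h2, h5])
  have v1 := h.dbl h1 h2 h3 h4 h5 h6 hV
  have v2 := h.dbl h2 h1 h3 h4.symm h6 h5 hC
  have v3 := h.dbl (x := V * C) h3 h1 h2 h5.symm h6.symm h4 (by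
    rw [map_mul, hV, hC]; ext u; simp only [Perm.mul_apply, swap_apply_def]; grind)
  have v4 : C * V * C⁻¹ = z * V := by
    have : C * V * C = V := by
      apply mul_left_cancel (a := V)
      rw [v1, ← v3]; group
    calc C * V * C⁻¹ = C * V * C * (C * C)⁻¹ := by group
      _ = z * V := by rw [this, v2, h.cen, inv_eq_of_mul_eq_one_right h.sq]
  have v5 : A * V⁻¹ * C = C * (A * V⁻¹) := by
    refine h.comm {t | t ≠ p ∧ t ≠ q ∧ t ≠ r ∧ t ≠ s} (fun t ht => ?_) ⟨h.sgn _, fun t ht => ?_⟩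
    · obtain ⟨t1, t2, t3, t4⟩ := ht
      rw [hC, Perm.mul_apply, swap_apply_of_ne_of_ne t2 t4, swap_apply_of_ne_of_ne t1 t3]
    · rw [map_mul, map_inv, hV]
      simp only [Set.mem_setOf_eq] at ht
      simp only [mul_inv_rev, swap_inv, Perm.mul_apply, swap_apply_def]
      grind
  have v6 : C * A⁻¹ * C⁻¹ = z * A⁻¹ := by
    have e5 : C * A * C⁻¹ = z * A := by
      calc C * A * C⁻¹ = C * (A * V⁻¹) * C⁻¹ * (C * V * C⁻¹) := by group
        _ = z * A := by rw [← v5, v4, mul_inv_cancel_right, ← mul_assoc, ← h.cen]; group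
    calc C * A⁻¹ * C⁻¹ = (C * A * C⁻¹)⁻¹ := by group
      _ = z * A⁻¹ := by rw [e5, mul_inv_rev, inv_eq_of_mul_eq_one_right h.sq, h.cen]
  rcases h.eq_or (x := g) (y := A * B * A⁻¹ * B⁻¹) (by
    rw [hg, ← hb', map_mul, map_mul, map_mul, map_inv, map_inv]; group) with e | e
  · exact ⟨A, B, e.symm⟩
  · refine ⟨A, B * C, ?_⟩
    calc A * (B * C) * A⁻¹ * (B * C)⁻¹ = A * B * (C * A⁻¹ * C⁻¹) * B⁻¹ := by group
      _ = g := by rw [v6, e, ← mul_assoc (A * B), ← h.cen]; group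

end Cfsg.Agent.H17.Dc
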