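import Cfsg.Agent.H14.SS5
import Cfsg.Agent.H14.Lift2

/-! Fixed points of twisted Frobenius maps on centralizers of diagonal elements. -/

set_option autoImplicit false

namespace Cfsg.Agent.H17

open Subgroup H14 H12

theorem exists_zmod {G : Type*} [Group G] {n : ℕ} [NeZero n] {a : G} (h : a ^ n = 1) :
    ∃ f : Multiplicative (ZMod n) →* G, ∀ k, f k = a ^ k.toAdd.val :=
  ⟨MonoidHom.mk' (fun k => a ^ k.toAdd.val) fun k l => by
    rw [toAdd_mul, ZMod.val_add, ← pow_eq_pow_mod _ h, pow_add], fun _ => rfl⟩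

theorem conj_of_two {G : Type*} [Group G] [Finite G] {p : ℕ} [hp : Fact p.Prime] {a b : G} (hab : Commute a b) (ha : a ^ p = 1)
    (hb : b ^ p = 1) (hG : ¬ p ^ 3 ∣ Nat.card G) (h : ∀ i < p, ∀ j < p, i = 0 ∧ j = 0 ∨ IsConj a (a ^ i * b ^ j)) (h1 : a ≠ 1)
    {x : G} (hx : orderOf x = p) : IsConj a x := by
  obtain ⟨f, hf⟩ := exists_zmod ha
  obtain ⟨g, hg⟩ := exists_zmod hb
  let φ := f.noncommCoprod g fun k l => by rw [hf, hg]; exact hab.pow_pow _ _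
  have a1 : ∀ z, z = 1 ∨ IsConj a (φ z) := fun z => (h _ (ZMod.val_lt z.1.toAdd) _ (ZMod.val_lt z.2.toAdd)).imp
    (fun e => Prod.ext ((ZMod.val_eq_zero _).1 e.1) ((ZMod.val_eq_zero _).1 e.2)) fun e => by rwa [← hf, ← hg] at e
  have a2 : Nat.card φ.range = p ^ 2 := by
    rw [← Nat.card_congr (MonoidHom.ofInjective ((injective_iff_map_eq_one φ).2 fun z hz => (a1 z).resolve_right fun e =>
      h1 (isConj_one_left.1 (hz ▸ e)))).toEquiv]
    simp [sq]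
  obtain ⟨P, hP⟩ := (IsPGroup.of_card a2).exists_le_sylow
  obtain ⟨Q, hQ⟩ := (IsPGroup.of_card (p := p) (n := 1) (G := zpowers x) (by simp [hx])).exists_le_sylow
  obtain ⟨c, rfl⟩ := MulAction.exists_smul_eq G P Q
  obtain ⟨n, hn⟩ := IsPGroup.iff_card.1 P.2
  have a3 : φ.range = P := eq_of_le_of_card_ge hP (by
    rw [a2, hn]
    exact Nat.pow_le_pow_right hp.out.pos (not_lt.1 fun e => hG ((pow_dvd_pow p e).trans (hn ▸ card_subgroup_dvd_card _))))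
  obtain ⟨y, hy, e⟩ := hQ (mem_zpowers x)
  obtain ⟨z, rfl⟩ := a3.ge hy
  refine ((a1 z).resolve_left ?_).trans (isConj_iff.2 ⟨c, e⟩)
  rintro rfl
  rw [← e] at hx
  simp [eq_comm, hp.out.ne_one] at hx

variable {ι Φ : Type} [Fintype ι] [DecidableEq ι] {R : RS ι Φ} {K : Type*} [Field K] {G : Type*} [Group G] (X : RG R K G) (hm : X.HMul)
  [CharP K 2]
include hm

theorem cent_fix [Finite Φ] {s : ι → Kˣ} {κ : Type} {β : κ → Φ} (hb : R.Base {r | R.chi s r = 1} β)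
    (ha : ∀ w ∈ R.W, (∀ r, R.chi s (w r) = R.chi s r) → (∀ r, R.chi s r = 1 → R.pos r → R.pos (w r)) → w = 1)
    {F : G →* G} (hF : ∀ r, R.chi s r = 1 → ∀ t, F (X.x r t) = X.x r (t ^ 2)) (hH : ∀ y ∈ X.H, F y ∈ X.H) {c : G} (hc : c ∈ X.grp)
    (h1 : Commute (X.torX hm s) c) (h2 : F c = c) :
    ∃ m ∈ closure {g | ∃ r, R.chi s r = 1 ∧ g = X.x r 1}, ∃ y ∈ X.H, F y = y ∧ c = m * y := by
  set M := closure {g | ∃ r, R.chi s r = 1 ∧ g = X.x r 1}
  have a0 : ∀ r, R.chi s r = 1 → X.x r 1 ∈ M := fun r h => subset_closure ⟨r, h, rfl⟩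
  have a1 : ∀ m ∈ M, F m = m := fun m h => (closure_le (K := F.eqLocus (MonoidHom.id _))).2
    (by rintro _ ⟨r, hr, rfl⟩; exact (hF r hr 1).trans (by rw [one_pow]; rfl)) h
  have a2 : ∀ t : Φ → K, (∀ r, R.pos r → R.chi s r ≠ 1 → t r = 0) → F (X.uu t) = X.uu fun r => t r ^ 2 := fun t h => by
    simp only [RG.uu, RG0.prodL, map_list_prod, List.map_map]
    refine congrArg _ (List.map_congr_left fun r hr => ?_)
    by_cases e : R.chi s r = 1
    exacts [hF r e _, by simp [h r (R.mem_posL.1 hr) e]]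
  have a3 : ∀ t : Φ → K, (∀ r, R.pos r → R.chi s r ≠ 1 → t r = 0) → (∀ r, R.pos r → t r ^ 2 = t r) → X.uu t ∈ M := fun t h h' =>
    X.uu_mem fun r hr e => by
      rw [mul_left_cancel₀ e ((sq (t r)).symm.trans ((h' r hr).trans (mul_one _).symm))]
      exact a0 r (by_contra fun e' => e (h r hr e'))
  obtain ⟨t, w, hw, a, t', b1, rfl⟩ := X.exists_nf hm hc
  obtain ⟨b2, b3⟩ := X.commute_nf hm hw b1 h1
  let S : Subgroup (Equiv.Perm Φ) := ⟨⟨⟨{w | w ∈ R.W ∧ ∀ r, R.chi s (w r) = R.chi s r},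
    fun h h' => ⟨mul_mem h.1 h'.1, fun r => (h.2 _).trans (h'.2 r)⟩⟩, one_mem _, fun _ => rfl⟩,
    fun {w} h => ⟨inv_mem h.1, fun r => by rw [← h.2]; simp⟩⟩
  have b4 : ∀ {n w}, X.Rep n w → Commute (X.torX hm s) n → w ∈ S := fun h e =>
    ⟨h.mem_W, X.chi_rep hm h (by rw [← e.eq, mul_inv_cancel_right])⟩
  have b5 : ∀ k, X.n (β k) 1 ∈ M ∧ Commute (X.torX hm s) (X.n (β k) 1) := fun k => by
    have c1 : R.chi s (β k) = 1 := hb.mem k
    have c2 : R.chi s (R.neg (β k)) = 1 := by rw [R.chi_neg, c1, inv_one]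
    have c3 : ∀ r, R.chi s r = 1 → Commute (X.torX hm s) (X.x r 1) := fun r h =>
      mul_inv_eq_iff_eq_mul.1 (by rw [X.torX_conj', h]; simp)
    rw [RG0.n, inv_one, CharTwo.neg_eq]
    exact ⟨mul_mem (mul_mem (a0 _ c1) (a0 _ c2)) (a0 _ c1), ((c3 _ c1).mul_right (c3 _ c2)).mul_right (c3 _ c1)⟩
  obtain ⟨m, b6, b7, b8⟩ : ∃ m ∈ M, m ∈ X.N ∧ X.Rep m w := by
    have := (hb.eq_closure (S := S) (fun _ h => h.1) (fun k => b4 (X.rep_n _ one_ne_zero) (b5 k).2)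
      fun w h => ha w h.1 h.2).le (b4 (X.rep_nW hw) b2)
    clear hw b1 b2 b3 hc h1 h2
    induction this using closure_induction with
    | mem _ h => obtain ⟨k, rfl⟩ := h; exact ⟨_, (b5 k).1, X.n_mem_N _ one_ne_zero, X.rep_n _ one_ne_zero⟩
    | one => exact ⟨1, one_mem _, one_mem _, X.rep_one⟩
    | mul _ _ _ _ h h' =>
      obtain ⟨m, c1, c2, c3⟩ := h
      obtain ⟨m', c4, c5, c6⟩ := h'
      exact ⟨_, mul_mem c1 c4, mul_mem c2 c5, c3.mul c6⟩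
    | inv _ _ h => obtain ⟨m, c1, c2, c3⟩ := h; exact ⟨_, inv_mem c1, inv_mem c2, c3.inv⟩
  have c1 := X.inv_mul_mem_H (X.nW_mem_N w) b7 (X.rep_nW hw) b8
  have c2 := mul_mem (inv_mem c1) (X.torX_mem_H hm a)
  generalize hy : ((X.nW w)⁻¹ * m)⁻¹ * X.torX hm a = y at c2
  have c3 : X.uu t * X.nW w * X.torX hm a * X.uu t' = X.uu t * m * y * X.uu t' := by rw [← hy]; group
  have c4 : X.uu (fun r => t r ^ 2) * X.nW w * ((X.nW w)⁻¹ * m * F y) * X.uu (fun r => t' r ^ 2) =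
      X.uu t * X.nW w * X.torX hm a * X.uu t' := by
    rw [← h2, c3]
    simp only [map_mul, a1 m b6, a2 t fun r h e => (b3 r h e).1, a2 t' fun r h e => (b3 r h e).2]
    group
  obtain ⟨-, c5, c6⟩ := X.nf_unique hw hw (mul_mem c1 (hH y c2)) (X.torX_mem_H hm a) (fun r h => by simp [b1 r h]) b1 c4
  have c7 : F y = y := (eq_inv_mul_iff_mul_eq.2 c5).trans hy
  obtain ⟨e, rfl⟩ := X.exists_torX hm c2
  have c8 : ∀ r, R.pos r → R.chi s r ≠ 1 → R.chi e r * t' r = 0 := fun r h e => by rw [(b3 r h e).2, mul_zero]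
  refine ⟨_, mul_mem (mul_mem (a3 t (fun r h e => (b3 r h e).1) fun r h => (c6 r h).1) b6) (a3 _ c8 fun r h =>
    X.uu_inj (t := fun r => (R.chi e r * t' r) ^ 2) (t' := fun r => R.chi e r * t' r) ?_ h), _, c2, c7,
    by rw [c3, ← X.conj_uu hm]; group⟩
  rw [← a2 _ c8, ← X.conj_uu hm]
  simp only [map_mul, map_inv, c7, a2 t' fun r h e => (b3 r h e).2, X.uu_congr fun r h => (c6 r h).2]

/-- a diagonalising element -/
def dg5 (r : Φ) (z : K) : G := X.x r z * X.x (R.neg r) 1 * X.x r (z + z ^ 4)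

theorem dg5_spec (r : Φ) {z : K} (h : z ^ 4 + z ^ 3 + z ^ 2 + z + 1 = 0) :
    X.x r (z + z ^ 4) * X.x (R.neg r) 1 * dg5 X r z = dg5 X r z * X.h r z ∧ dg5 X r (z ^ 4) = dg5 X r z * X.n r (z ^ 2 + z ^ 3) := by
  obtain ⟨φ, -, h1, h2⟩ := X.exists_SL2' hm r
  have h3 : (2 : K) = 0 := CharTwo.two_eq_zero
  have h4 : z⁻¹ = z ^ 4 := inv_eq_of_mul_eq_one_right (by grind)
  have h5 : (z ^ 2 + z ^ 3)⁻¹ = z + z ^ 4 := inv_eq_of_mul_eq_one_right (by grind)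
  simp only [dg5, RG0.h, RG0.n, ← h1, ← h2, ← map_mul, h4, h5, CharTwo.neg_eq, inv_one]
  constructor <;> congr 1 <;> ext i j <;> fin_cases i <;> fin_cases j <;> simp [Matrix.mul_apply, Fin.sum_univ_two] <;> grind

end Cfsg.Agent.H17
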