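import Cfsg.Agent.H17.E5A
import Cfsg.Agent.H14.SS7
import Cfsg.Agent.H14.Reg

/-! The centralizer of an element of order five of `²E₆(2)`, inside `E₆(16)`. -/

set_option autoImplicit false

namespace Cfsg.Agent.H17.E6

open Subgroup H14 H15 Cfsg.Lie Matrix

/-- the roots of the subsystem of type `A₃` -/
def A12 : List (Fin 72) := [46, 39, 47, 69, 70, 71, 25, 32, 24, 2, 1, 0]

/-- the exponents of the diagonal element of order five -/
def e5 : Fin 6 → ℤ := ![1, 0, 0, 0, 0, 2]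

/-- the graph symmetry on the roots -/
noncomputable def ρ6 (r : Fin 72) : Fin 72 := morE6.r r

theorem vec6 (r : Fin 72) (i : Fin 6) : R6.vec r i = tabE6.vec r i := rfl

theorem refl6 {r s k : Fin 72} (h : ∀ i : Fin 6, tabE6.vec k i = tabE6.vec s i - tabE6.pr 6 r s * tabE6.vec r i) : R6.refl r s = k :=
  R6.vec_inj (funext fun i => by rw [R6.vec_refl, pair6]; exact (h i).symm)

theorem neg6 (r : Fin 72) : (R6.neg r : ℕ) = chevE6.neg r := goodE6.neg_eq r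

theorem ev6 (r : Fin 72) : 5 ∣ R6.ev r e5 ↔ r ∈ A12 := by
  simp only [R6.ev_apply, pair6, simple6]
  revert r
  decide +kernel

theorem base6 : R6.Base {r | r ∈ A12} ![46, 39, 69] := by
  refine ⟨by decide, fun k => ?_, fun k r h => ?_, fun k r h => ?_, fun r h => ?_⟩
  · revert k; simp only [RS.pos, Pi.le_def, vec6]; decide +kernel
  · rw [Set.mem_ofPred_eq, ← ev6] at h ⊢
    rw [R6.ev_refl]
    exact dvd_sub h (((ev6 _).2 (by revert k; decide)).mul_left _)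
  · simp only [RS.pos, Pi.le_def, R6.vec_refl, pair6, Pi.sub_apply, Pi.smul_apply, vec6, Set.mem_ofPred_eq] at h ⊢
    revert r k; decide +kernel
  · simp only [RS.pos, Pi.le_def, pair6, vec6, Set.mem_ofPred_eq] at h ⊢
    revert r; decide +kernel

theorem alc6 {w : Equiv.Perm (Fin 72)} (hw : w ∈ R6.W) (h : ∀ r, 5 ∣ R6.ev (w r) e5 - R6.ev r e5)
    (h' : ∀ r, r ∈ A12 → R6.pos r → R6.pos (w r)) : w = 1 := by
  have a1 : ∀ j, 5 ∣ ∑ i, (e5 - e5 ᵥ* R6.mat w) i * carE6 i j := fun j => by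
    have := h (w⁻¹ (R6.simple j))
    rw [← RS.ev_mat' (R6.W_le_Aut hw), Equiv.Perm.coe_inv, Equiv.apply_symm_apply, ← map_sub, R6.ev_apply] at this
    simpa only [RS.pair_simple_simple, car6] using this
  have a2 : ∀ i, ∃ c, (e5 - e5 ᵥ* R6.mat w) i = 5 * c := by
    generalize e5 - e5 ᵥ* R6.mat w = d at a1
    have b0 := a1 0
    have b1 := a1 1
    have b2 := a1 2
    have b3 := a1 3
    have b4 := a1 4
    have b5 := a1 5
    simp [Fin.sum_univ_six, carE6] at b0 b1 b2 b3 b4 b5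
    have c0 : 5 ∣ d 0 := by omega
    have c2 : 5 ∣ d 2 := by omega
    have c5 : 5 ∣ d 5 := by omega
    have c4 : 5 ∣ d 4 := by omega
    have c3 : 5 ∣ d 3 := by omega
    have c1 : 5 ∣ d 1 := by omega
    intro i
    fin_cases i
    exacts [c0, c1, c2, c3, c4, c5]
  choose y hy using a2
  exact R6.alcove (m := 5) (by norm_num) hw (e := e5) (y := y) (funext fun i => by
    rw [Pi.add_apply, Pi.smul_apply, smul_eq_mul, ← hy, Pi.sub_apply]; ring) fun r a b => h' r ((ev6 r).1 b) a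

variable {L : Type*} [Field L]

theorem tor_eq (hm : (Y6 L).HMul) {b c : Fin 6 → Lˣ} (h : ∀ j, R6.chi b (R6.simple j) = R6.chi c (R6.simple j)) :
    (Y6 L).torX hm b = (Y6 L).torX hm c := by
  rw [← mul_inv_eq_one, ← map_inv, ← map_mul]
  refine Subtype.ext ((map_torX hm (goodE6.rgD_hom L) (b * c⁻¹)).trans (mem_tor6_ker.2 fun j => ?_))
  have := h j
  simp only [RS.chi, RS.pair_simple_simple, car6] at this
  simp [mul_zpow, Finset.prod_mul_distrib, this]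

theorem tor5 (h15 : ∀ u : Lˣ, u ^ 15 = 1) {ζ : Lˣ} (hζ : orderOf ζ = 5) {b : Fin 6 → Lˣ}
    (h : ∀ r, R6.chi b (R6.refl 56 (ρ6 r)) = R6.chi b r ^ 2) : ∃ k : ℕ, ∀ j, R6.chi b (R6.simple j) =
      R6.chi ((fun i => ζ ^ e5 i) ^ k) (R6.simple j) := by
  have a0 : ∀ r s : Fin 72, (∀ i : Fin 6, tabE6.vec s i = tabE6.vec (morE6.ρ r) i - tabE6.pr 6 56 (morE6.ρ r) * tabE6.vec 56 i) →
      R6.chi b s = R6.chi b r ^ 2 := fun r s e => by rw [← h, refl6 (r := 56) (s := ρ6 r) e]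
  have a1 : ∀ (c : Fin 6 → Lˣ) (r : Fin 72) (v : Fin 6 → ℤ), (∀ i, tabE6.pr 6 (![56, 46, 42, 39, 37, 36] i : Fin 72) r = v i) →
      R6.chi c r = ∏ i, c i ^ v i := fun c r v e => by simp only [RS.chi, pair6, simple6, e]
  have b1 := a0 46 46 (by decide +kernel)
  have b3 := a0 39 39 (by decide +kernel)
  have b5 := a0 56 36 (by decide +kernel)
  have b4 := a0 42 37 (by decide +kernel)
  have b0 := a0 37 57 (by decide +kernel)
  have c0 : R6.chi b 57 = R6.chi b 56 * R6.chi b 42 ∧ R6.chi b 56 ^ 4 * R6.chi b 46 ^ 3 * R6.chi b 42 ^ 5 * R6.chi b 39 ^ 6 *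
      R6.chi b 37 ^ 4 * R6.chi b 36 ^ 2 = b 0 ^ 3 := by
    rw [a1 b 57 ![1, 0, 1, -1, 0, 0] (by decide +kernel), a1 b 56 (carE6 · 0) (by decide +kernel), a1 b 46 (carE6 · 1) (by decide +kernel),
      a1 b 42 (carE6 · 2) (by decide +kernel), a1 b 39 (carE6 · 3) (by decide +kernel), a1 b 37 (carE6 · 4) (by decide +kernel),
      a1 b 36 (carE6 · 5) (by decide +kernel)]
    simp only [Fin.prod_univ_six, carE6]
    constructor <;> refine Units.ext ?_ <;> simp <;> field_simp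
  obtain ⟨c0, c1⟩ := c0
  rw [sq, left_eq_mul] at b1 b3
  rw [c0, b4, ← pow_mul, show 2 * 2 = 3 + 1 from rfl, pow_succ, mul_left_inj] at b0
  have c2 : R6.chi b 42 ^ 5 = 1 := by
    have := congrArg (· ^ 5) c1
    simp only [b1, b3, b5, b4, b0, one_pow, mul_one, ← pow_mul, ← pow_add, h15] at this
    rwa [pow_eq_pow_mod _ (h15 _)] at this
  obtain ⟨k, -, hk⟩ := (IsPrimitiveRoot.coe_units_iff.2 (hζ ▸ IsPrimitiveRoot.orderOf ζ).inv).eq_pow_of_pow_eq_one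
    (ξ := (R6.chi b 42 : L)) (by rw [← Units.val_pow_eq_pow_val, c2, Units.val_one])
  rw [← Units.val_pow_eq_pow_val, Units.val_inj] at hk
  have c3 : ζ ^ (5 : ℤ) = 1 := by rw [zpow_ofNat, ← hζ, pow_orderOf_eq_one]
  refine ⟨k, fun j => ?_⟩
  have c4 : R6.chi b (R6.simple j) = R6.chi b 42 ^ (![3, 0, 1, 0, 2, 6] j : ℕ) := by
    rw [simple6]
    fin_cases j <;> simp [b0, b1, b3, b4, b5, ← pow_mul]
  rw [c4, ← hk, show (fun i => ζ ^ e5 i) ^ k = fun i => (ζ ^ k) ^ e5 i from funext fun i => by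
    rw [Pi.pow_apply, ← zpow_natCast, ← zpow_natCast, ← _root_.zpow_mul, ← _root_.zpow_mul, mul_comm], R6.chi_zpow, inv_pow, ← zpow_natCast,
    ← _root_.zpow_neg_one, ← _root_.zpow_mul, zpow_eq_zpow_iff_modEq]
  refine Int.ModEq.of_dvd (Int.natCast_dvd_natCast.2 (orderOf_dvd_of_pow_eq_one (n := 5) (by
    rw [← pow_mul, mul_comm, pow_mul, ← hζ, pow_orderOf_eq_one, one_pow]))) ?_
  simp only [R6.ev_apply, RS.pair_simple_simple, car6]
  clear c4
  revert j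
  decide

variable {Γ : Type*} [Group Γ] (Y : RG R6 L Γ)

theorem com6 {r s : Fin 72} (h : tabE6.pr 6 r s = 0) {a b : Γ} (ha : a ∈ Y.gen {r, R6.neg r})
    (hb : b ∈ Y.gen {s, R6.neg s}) : Commute a b :=
  Y.commute_of_long ((pair6 r s).trans h) (fun k hk => by
    rcases R6.pair_cases_sl (slE6 _) r k with e | rfl | e | e | e
    exacts [e, by simp at hk, by omega, by omega, by omega]) ha hb

/-- the element of order five -/
def x5 (ω : L) : Γ := Y.x 56 ω * Y.x 36 (ω ^ 2) * (Y.x 15 1 * Y.x 35 1)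

theorem neg56 : R6.neg 56 = 15 := Fin.ext ((neg6 _).trans (by decide +kernel))
theorem neg36 : R6.neg 36 = 35 := Fin.ext ((neg6 _).trans (by decide +kernel))

theorem comA {r : Fin 72} (h : r ∈ A12) (t : L) {a b : Γ} (ha : a ∈ Y.gen {56, R6.neg 56})
    (hb : b ∈ Y.gen {36, R6.neg 36}) : Commute (a * b) (Y.x r t) := by
  obtain ⟨h1, h2⟩ := (by decide +kernel : ∀ r ∈ A12, tabE6.pr 6 (56 : Fin 72) r = 0 ∧ tabE6.pr 6 (36 : Fin 72) r = 0) r h
  exact (com6 Y h1 ha (Y.x_mem_gen (by simp) t)).mul_left (com6 Y h2 hb (Y.x_mem_gen (by simp) t))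

theorem x5_eq (ω : L) : x5 Y ω = Y.x 56 ω * Y.x (R6.neg 56) 1 * (Y.x 36 (ω ^ 2) * Y.x (R6.neg 36) 1) := by
  rw [x5, ← neg56, ← neg36]
  exact (com6 Y (r := 36) (s := 56) (by decide +kernel) (Y.x_mem_gen (by simp) _) (Y.x_mem_gen (by simp) _)).mul_mul_mul_comm _ _

theorem x5_comm (ω : L) {r : Fin 72} (h : r ∈ A12) (t : L) : Commute (x5 Y ω) (Y.x r t) :=
  x5_eq Y ω ▸ comA Y h t (mul_mem (Y.x_mem_gen (by simp) _) (Y.x_mem_gen (by simp) _))
    (mul_mem (Y.x_mem_gen (by simp) _) (Y.x_mem_gen (by simp) _))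

theorem cent6 [CharP L 2] (hm : Y.HMul) (htop : Y.grp = ⊤) (hT : ∀ {b c : Fin 6 → Lˣ},
    (∀ j, R6.chi b (R6.simple j) = R6.chi c (R6.simple j)) → Y.torX hm b = Y.torX hm c)
    (h15 : ∀ u : Lˣ, u ^ 15 = 1) {ζ : Lˣ} (hζ : orderOf ζ = 5) {F : Γ →* Γ}
    (hF : ∀ r t, F (Y.x r t) = Y.x (ρ6 r) (t ^ 2)) : orderOf (x5 Y ((ζ : L) + ζ ^ 4)) = 5 ∧ ∀ c, Commute (x5 Y ((ζ : L) + ζ ^ 4)) c →
      F c = c → ∃ m ∈ closure {g | ∃ r ∈ A12, g = Y.x r 1}, ∃ k : ℕ, c = m * x5 Y ((ζ : L) + ζ ^ 4) ^ k := by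
  have h2 : (2 : L) = 0 := CharTwo.two_eq_zero
  have z5 : ζ ^ 5 = 1 := hζ ▸ pow_orderOf_eq_one ζ
  have z0 : (ζ : L) ^ 4 + ζ ^ 3 + ζ ^ 2 + ζ + 1 = 0 := by
    refine mul_left_cancel₀ (sub_ne_zero.2 fun e : (ζ : L) = 1 => ?_) (by
      linear_combination (Units.val_pow_eq_pow_val ζ 5).symm.trans (congrArg Units.val z5) + Units.val_one (α := L))
    simp [Units.val_eq_one.1 e] at hζ
  have z1 : ∀ r, R6.chi (fun i => ζ ^ e5 i) r = 1 ↔ r ∈ A12 := fun r => by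
    rw [R6.chi_zpow, ← orderOf_dvd_iff_zpow_eq_one, hζ]; exact ev6 r
  obtain ⟨a1, a2⟩ := dg5_spec Y hm 56 z0
  obtain ⟨a3, -⟩ := dg5_spec Y hm 36 (z := (ζ : L) ^ 2) (by grind)
  have m1 : ∀ r z, dg5 Y r z ∈ Y.gen {r, R6.neg r} := fun r z =>
    mul_mem (mul_mem (Y.x_mem_gen (by simp) _) (Y.x_mem_gen (by simp) _)) (Y.x_mem_gen (by simp) _)
  have m2 : ∀ r z, Y.n r z ∈ Y.gen {r, R6.neg r} := fun r z => Y.n_mem_gen (by simp) (by simp) _
  have m3 : ∀ {a b}, a ∈ Y.gen {56, R6.neg 56} → b ∈ Y.gen {36, R6.neg 36} → Commute a b := com6 Y (by decide +kernel)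
  have r1 : ∀ r, ρ6 (R6.neg r) = R6.neg (ρ6 r) := morE6.r_neg goodE6 goodE6
  have r2 : ρ6 56 = 36 := Fin.ext (by decide +kernel : morE6.ρ 56 = 36)
  have r3 : ρ6 36 = 56 := Fin.ext (by decide +kernel : morE6.ρ 36 = 56)
  have r4 : ∀ r ∈ A12, ρ6 r = r := fun r h => Fin.ext ((by decide +kernel : ∀ r ∈ A12, morE6.ρ r = r) r h)
  have a4 : ∀ r z, F (dg5 Y r z) = dg5 Y (ρ6 r) (z ^ 2) := fun r z => by
    simp only [dg5, map_mul, hF, r1, one_pow, CharTwo.add_sq, ← pow_mul]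
  have a5 : ∀ r t, F (Y.n r t) = Y.n (ρ6 r) (t ^ 2) := fun r z => by
    simp only [RG0.n, map_mul, hF, r1, CharTwo.neg_eq, inv_pow]
  have t0 : (ζ : L) ^ 2 + ζ ^ 3 ≠ 0 := left_ne_zero_of_mul_eq_one (b := ζ + ζ ^ 4) (by grind)
  generalize (ζ : L) ^ 2 + ζ ^ 3 = τ at a2 t0
  generalize hg : dg5 Y 56 ζ * dg5 Y 36 (ζ ^ 2) = g
  have a6 : F g = g * Y.n 56 τ := by
    rw [← hg, map_mul, a4, a4, r2, r3, ← pow_mul, a2, ← (m3 (mul_mem (m1 _ _) (m2 _ _)) (m1 _ _)).eq, mul_assoc, mul_assoc,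
      (m3 (m2 _ _) (m1 _ _)).eq]
  have a7 : x5 Y ((ζ : L) + ζ ^ 4) = g * Y.torX hm (fun i => ζ ^ e5 i) * g⁻¹ := by
    rw [eq_mul_inv_iff_mul_eq, x5_eq, ← hg, (m3 (m1 _ _) (mul_mem (Y.x_mem_gen (by simp) _)
      (Y.x_mem_gen (by simp) _))).symm.mul_mul_mul_comm, a1, CharTwo.add_sq, ← pow_mul, mul_comm 4, pow_mul, a3,
      (m3 (a := Y.h 56 ζ) (mul_mem (m2 _ _) (m2 _ _)) (m1 _ _)).mul_mul_mul_comm, show (fun i => ζ ^ e5 i) = Pi.mulSingle 0 ζ * Pi.mulSingle 5 (ζ ^ 2) from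
        funext fun i => by fin_cases i <;> simp [e5, zpow_ofNat], map_mul, RG.torX_single, RG.torX_single, simple6, simple6]
    rfl
  refine ⟨orderOf_eq_prime (hp := ⟨Nat.prime_five⟩) ?_ fun e => ?_, fun c h1 h3 => ?_⟩
  · rw [a7, conj_pow, ← map_pow, show (fun i => ζ ^ e5 i) ^ 5 = 1 from funext fun i => by
      rw [Pi.pow_apply, ← zpow_natCast, ← _root_.zpow_mul, mul_comm, _root_.zpow_mul, zpow_natCast, z5, _root_.one_zpow]; rfl]
    simp
  · have := Y.torX_conj' hm (fun i => ζ ^ e5 i) 56 1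
    rw [conj_eq_one_iff.1 (a7.symm.trans e), one_mul, inv_one, mul_one, mul_one] at this
    exact absurd ((z1 56).1 (Units.val_eq_one.1 (Y.x_injective _ this).symm)) (by decide)
  let F' := (MulAut.conj (Y.n 56 τ)).toMonoidHom.comp F
  have b0 : ∀ y, F' y = Y.n 56 τ * F y * (Y.n 56 τ)⁻¹ := fun _ => rfl
  obtain ⟨m, b1, y, b2, b3, b4⟩ := cent_fix Y hm (s := fun i => ζ ^ e5 i) (by simpa only [z1] using base6)
    (fun w hw h h' => alc6 hw (fun r => by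
      have := h r
      rwa [R6.chi_zpow, R6.chi_zpow, zpow_eq_zpow_iff_modEq, hζ, Int.modEq_comm, Int.modEq_iff_dvd] at this) fun r e => h' r ((z1 r).2 e))
    (F := F') (fun r h t => by
      rw [b0, hF, r4 r ((z1 r).1 h), mul_inv_eq_iff_eq_mul]
      simpa using (comA Y ((z1 r).1 h) _ (m2 56 τ) (one_mem _)).eq)
    (fun y hy => Y.conj_mem_H (Y.n_mem_N _ t0) ((closure_le (K := Y.H.comap F)).2 (by
      rintro _ ⟨r, t, ht, rfl⟩
      simpa [RG0.h, a5, CharTwo.neg_eq] using Y.h_mem_H (ρ6 r) (pow_ne_zero 2 ht)) hy))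
    (c := g⁻¹ * c * g) (htop.ge trivial) (by
      have := h1.map (MulAut.conj g⁻¹)
      simpa [a7, mul_assoc] using this) (by rw [b0, map_mul, map_mul, map_inv, a6, h3]; group)
  obtain ⟨b, rfl⟩ := Y.exists_torX hm b2
  obtain ⟨k, hk⟩ := tor5 h15 hζ (b := b) fun r => by
    have := congrArg F' (Y.torX_conj' hm b r 1)
    rw [map_mul, map_mul, map_inv, b3, b0, b0, hF, hF, Y.n_conj _ _ _ t0, Y.n_conj _ _ _ t0, Y.torX_conj'] at this
    have := Y.x_injective _ this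
    rw [one_pow, mul_one, mul_one, mul_comm] at this
    exact Units.ext (mul_left_cancel₀ (mul_ne_zero (Y.η_cast_ne _ _) (zpow_ne_zero _ t0)) this)
  simp only [z1] at b1
  refine ⟨m, b1, k, ?_⟩
  have b5 : Commute g m := (closure_le (K := centralizer {g})).2 (by
    rintro _ ⟨r, h, rfl⟩
    exact mem_centralizer_singleton_iff.2 (hg ▸ comA Y h 1 (m1 _ _) (m1 _ _)).symm) b1 g rfl
  rw [a7, conj_pow, ← map_pow, ← hT hk, ← mul_assoc, ← mul_assoc, ← b5.eq, mul_assoc g, ← b4]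
  group

end Cfsg.Agent.H17.E6
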