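import Cfsg.Agent.H17.E5B
import Cfsg.Agent.H17.E5D
import Cfsg.Agent.H14.Tor1
import Cfsg.Agent.L0.PresSLn
import Cfsg.Agent.S0256
import Cfsg.Agent.S1066
import Mathlib.FieldTheory.Finite.Extension

/-! Elements of order five of `²E₆(2)`. -/

set_option autoImplicit false

namespace Cfsg.Agent.H17

open Subgroup Matrix

theorem cent_prod {G A : Type*} [Group G] [Group A] {p : ℕ} [NeZero p] {x : G} (hx : orderOf x = p) (φ : A →* G)
    (hφ : Function.Injective φ) (hZ : center A = ⊥) (h : ∀ a, Commute x (φ a)) (h' : ∀ c, Commute x c → ∃ a, ∃ k : ℕ, c = φ a * x ^ k) :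
    Nonempty (centralizer ({x} : Set G) ≃* Multiplicative (ZMod p) × A) := by
  have h0 : x ^ p = 1 := hx ▸ pow_orderOf_eq_one x
  obtain ⟨f, hf⟩ := exists_zmod h0
  let ψ := f.noncommCoprod φ fun k a => by rw [hf]; exact (h a).pow_left _
  have a0 : ∀ z, ψ z = x ^ z.1.toAdd.val * φ z.2 := fun z => hf z.1 ▸ rfl
  refine ⟨((MonoidHom.ofInjective ((injective_iff_map_eq_one ψ).2 fun z hz => ?_)).trans (MulEquiv.subgroupCongr (le_antisymm ?_ fun c hc => ?_))).symm⟩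
  · rw [a0] at hz
    have : z.2 = 1 := hZ.le (mem_center_iff.2 fun a => hφ (by
      rw [map_mul, map_mul, eq_inv_of_mul_eq_one_right hz]; exact ((h a).pow_left _).inv_left.symm))
    rw [this, map_one, mul_one, ← orderOf_dvd_iff_pow_eq_one, hx] at hz
    exact Prod.ext ((ZMod.val_eq_zero _).1 (Nat.eq_zero_of_dvd_of_lt hz (ZMod.val_lt _))) this
  · rintro _ ⟨z, rfl⟩
    exact mem_centralizer_singleton_iff.2 (a0 z ▸ ((Commute.refl x).pow_right _).mul_right (h _)).symm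
  · obtain ⟨a, k, rfl⟩ := h' c (mem_centralizer_singleton_iff.1 hc).symm
    exact ⟨(Multiplicative.ofAdd k, a), by rw [a0, toAdd_ofAdd, ZMod.val_natCast, ← pow_eq_pow_mod _ h0, ((h a).pow_left k).eq]⟩

namespace E6

open B4 H14 H15 Cfsg.Lie

variable {K : Type*} [Field K] [Fintype K] (hK : Fintype.card K = 4)
include hK

theorem exists_omega : ∃ ω : K, ω * ω = ω + 1 := by
  classical
  have : CharP K 2 := charP_of_card_eq_prime_pow (f := 2) hK
  obtain ⟨ω, h⟩ : ∃ ω : K, ω ∉ ({0, 1} : Finset K) := by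
    by_contra! h
    simpa [hK] using (Finset.card_le_card fun x _ => h x : (Finset.univ : Finset K).card ≤ _).trans Finset.card_le_two
  simp only [Finset.mem_insert, Finset.mem_singleton, not_or] at h
  have h3 := FiniteField.pow_card_sub_one_eq_one ω h.1
  rw [hK] at h3
  refine ⟨ω, mul_left_cancel₀ (sub_ne_zero.2 h.2) ?_⟩
  linear_combination h3 - (ω ^ 2 - 1) * CharTwo.two_eq_zero (R := K)

theorem conj5 : ∃ a : twistedE6 K 2, ∀ x, orderOf x = 5 → IsConj a x := by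
  have : CharP K 2 := charP_of_card_eq_prime_pow (f := 2) hK
  obtain ⟨ω, hω⟩ := exists_omega hK
  obtain ⟨S, hS⟩ := exists_E6 (K := K) (q := 2) Nat.prime_two.isPrimePow hK
  have e1 : dec chevE6 ω (i, 0) = 1 := by rw [dec_zero, ← hi]; exact matOf_idm (D := chevE6) (by decide)
  let m : ℕ → twistedE6 K 2 := fun x => ⟨gl goodE6 K (nth [] Wr x), nth_prop (P := fun w => gl goodE6 K w ∈ twistedE6 K 2) (one_mem _)
    (fun w hw => hS.T_eq ▸ hS.gl_mem (by revert w; decide +kernel)) x⟩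
  have hm : ∀ x, ((m x).1 : Matrix _ _ K) = ltr chevE6 ω G8 x := fun x => by
    rw [ltr, show idm (chevE6.rank + chevE6.nroots) = i from hi]
    rcases lt_or_ge x 8 with h | h
    · rw [cG8 x h, dec_zero, matOf_wmat goodE6 bridgeE6 (by decide) (nth_prop (P := fun w : List ℕ => ∀ r ∈ w, r < 72) (by simp) (by decide) x)]
      exact gw_val _ _ _
    · simp only [m]
      rw [nth_of_ge _ (show G8.length ≤ x from h), nth_of_ge _ (show Wr.length ≤ x from h), e1]; rfl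
  have hz : ∀ x, ((sub W5 m x).1 : Matrix _ _ K) = ltr chevE6 ω Z5 x := fun x => by
    rw [ltr, show idm (chevE6.rank + chevE6.nroots) = i from hi]
    rcases lt_or_ge x 4 with h | h
    · exact (congrArg Units.val (map_ev (twistedE6 K 2).subtype m _)).trans (ev_eq (D := chevE6) hω (by decide) rfl ho hi hm (cZ5 x h))
    · rw [sub_triv m (show W5.length ≤ x from h), nth_of_ge _ (show Z5.length ≤ x from h), e1]; rfl
  generalize sub W5 m = z at hz
  have E : ∀ {u v}, sumB o 78 i Z5 [u, v] (0, 0) = true → ev z u = ev z v := fun {u v} h => by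
    have := sum_eq (D := chevE6) hω (by decide) rfl ho hi h
    have e : ∀ u, ((ev z u).1 : Matrix _ _ K) = (u.map (ltr chevE6 ω Z5)).prod := fun u => by
      rw [← funext hz]
      simpa [ev, Function.comp_def] using map_list_prod ((Units.coeHom _).comp (twistedE6 K 2).subtype) (u.map z)
    simp only [dec_zero, matOf_zero, List.map_cons, List.sum_cons, List.map_nil, List.sum_nil, add_zero, ← e] at this
    exact Subtype.ext (Units.ext ((eq_neg_of_add_eq_zero_left this).trans (by ext; simp [CharTwo.neg_eq])))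
  have hG := S1066.result (K := K) (q := 2) Nat.prime_two.isPrimePow hK
  have := Fact.mk Nat.prime_five
  refine ⟨z 0, fun x => conj_of_two (b := z 1) ?_ ?_ ?_ (fun h => absurd (hG ▸ h.mul_left _) (by norm_num)) (fun a ha b hb => ?_) fun e => ?_⟩
  · simpa [Commute, SemiconjBy] using E (allL_true cR5 ([0, 1], [1, 0]) (by simp))
  · simpa [pow_succ, mul_assoc] using E (allL_true cR5 ([0, 0, 0, 0, 0], []) (by simp))
  · simpa [pow_succ, mul_assoc] using E (allL_true cR5 ([1, 1, 1, 1, 1], []) (by simp))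
  · refine (cC5 a ha b hb).imp_right fun h => isConj_iff.2 ⟨ev z (nth [] (nth [] C5 a) b), mul_inv_eq_iff_eq_mul.2 ?_⟩
    simpa [ev, mul_assoc] using E h
  · have := congrFun₂ (hz 0) (Sum.inl ⟨1, by decide⟩) (Sum.inl ⟨3, by decide⟩)
    rw [e, ltr, show idm (chevE6.rank + chevE6.nroots) = i from hi, dec, cN5.1, matOf_zero, smul_zero, add_zero, matOf, of_apply] at this
    exact zero_ne_one (((one_apply_ne (by simp)).symm.trans this).trans (if_pos cN5.2))

omit hK [Fintype K] in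
theorem exists_SL4 (σ : ZMod 2 →+* K) : ∃ φ : SpecialLinearGroup (Fin 4) (ZMod 2) →* chevE6.group K, φ ≠ 1 ∧
    φ.range = closure {g | ∃ r ∈ A12, g = (Y6 K).x r 1} := by
  let ρ : Fin 4 → Fin 4 → Fin 72 := ![![0, 46, 47, 71], ![25, 0, 39, 70], ![24, 32, 0, 69], ![0, 1, 2, 0]]
  obtain ⟨h1, h2⟩ := L0.steinberg (F := ZMod 2) (n := 4) (by norm_num)
  obtain ⟨φ, hφ⟩ := h2 _ (fun i j => (Y6 (ZMod 2)).x (ρ i j)) (fun _ _ => (Y6 _).x_add _) (fun i j k l a b c1 c2 c3 c4 =>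
    (Y6 _).commute_sl (slE6 _) (by rw [pair6]; revert i j k l; decide +kernel) _ _) fun i j k a b c1 c2 c3 => by
      rw [← commutatorElement_def, (Y6 _).comm_sl (slE6 _) (by rw [pair6]; revert i j k; decide +kernel),
        refl6 (k := ρ i k) (by revert i j k; decide +kernel), (by decide : ∀ t : ZMod 2, t ≠ 0 → t = 1) _ ((Y6 _).η_cast_ne _ _), one_mul]
  obtain ⟨ψ, -, hψ⟩ := goodE6.exists_adMap σ
  have a1 : ∀ i j a, i ≠ j → ψ.comp φ (L0.Xn i j a) = (Y6 K).x (ρ i j) (σ a) := fun i j a h => (congrArg ψ (hφ i j a h)).trans (hψ _ _)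
  refine ⟨ψ.comp φ, fun e => ?_, le_antisymm ?_ ((closure_le _).2 ?_)⟩
  · have := a1 0 1 1 (by decide)
    rw [e, map_one, MonoidHom.one_apply, ← (Y6 K).x_zero (ρ 0 1)] at this
    exact zero_ne_one ((Y6 K).x_injective _ this)
  · rw [MonoidHom.range_eq_map, ← h1, MonoidHom.map_closure, closure_le]
    rintro _ ⟨_, ⟨⟨i, j, a⟩, rfl⟩, rfl⟩
    by_cases h : i = j
    · simp [L0.Xn, h]
    rw [a1 i j a h]
    rcases (by decide : ∀ t : ZMod 2, t = 0 ∨ t = 1) a with rfl | rfl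
    exacts [by simp, subset_closure ⟨ρ i j, by revert i j; decide, by rw [map_one]⟩]
  · rintro _ ⟨r, h, rfl⟩
    obtain ⟨i, j, c, rfl⟩ := (by decide : ∀ r ∈ A12, ∃ i j, i ≠ j ∧ ρ i j = r) r h
    exact ⟨_, (a1 i j 1 c).trans (by rw [map_one])⟩

theorem cent5 : ∃ x : twistedE6 K 2, orderOf x = 5 ∧ ∃ φ : alternatingGroup (Fin 8) →* twistedE6 K 2, Function.Injective φ ∧
    (∀ a, Commute x (φ a)) ∧ ∀ c, Commute x c → ∃ a, ∃ k : ℕ, c = φ a * x ^ k := by
  have : CharP K 2 := charP_of_card_eq_prime_pow (f := 2) hK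
  obtain ⟨ω, hω⟩ := exists_omega hK
  obtain ⟨S, hS⟩ := exists_E6 (K := K) (q := 2) Nat.prime_two.isPrimePow hK
  obtain ⟨L, _, _, σ, hL⟩ : ∃ (L : Type) (_ : Field L) (_ : Finite L) (_ : K →+* L), Nat.card L = 16 :=
    ⟨FiniteField.Extension K 2 2, inferInstance, inferInstance, algebraMap _ _, by simpa [hK] using FiniteField.natCard_extension K 2 2⟩
  have : CharP L 2 := charP_of_injective_ringHom σ.injective 2
  have h2 : (2 : L) = 0 := CharTwo.two_eq_zero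
  have hL' : Nat.card Lˣ = 15 := by rw [Nat.card_units, hL]
  have := Fact.mk Nat.prime_five
  obtain ⟨ζ, hζ⟩ := exists_prime_orderOf_dvd_card' (G := Lˣ) 5 (by rw [hL']; norm_num)
  obtain ⟨ψ, ψ1, ψ2⟩ := goodE6.exists_adMap σ
  obtain ⟨γ, hγ⟩ := goodE6.exists_graphAut (F := L) (by simp) morE6 (Or.inl rfl) fun x => ⟨x, pow_one x⟩
  obtain ⟨f, hf⟩ := goodE6.exists_fieldAut' (frobeniusEquiv L 2)
  let F := γ.toMonoidHom.comp f.toMonoidHom
  have hF : ∀ r t, F ((Y6 L).x r t) = (Y6 L).x (ρ6 r) (t ^ 2) := fun r t => (congrArg γ (hf r t)).trans ((hγ r _).trans (by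
    rw [morE6_e, pow_one, (mul_self_eq_one_iff.1 (morE6.ε_sq (K := L) r)).elim id fun e => e.trans (CharTwo.neg_eq 1), one_mul]; rfl))
  obtain ⟨a1, a2⟩ := cent6 (Y6 L) (goodE6.rgD_hmul L) (goodE6.rgD_top L) (tor_eq _) (fun u => hL' ▸ pow_card_eq_one') hζ hF
  obtain ⟨ω, hω⟩ : ∃ ω, σ ω = ζ + ζ ^ 4 := by
    have z5 : (ζ : L) ^ 5 = 1 := by rw [← Units.val_pow_eq_pow_val, ← hζ, pow_orderOf_eq_one, Units.val_one]
    have z0 : (ζ : L) ^ 4 + ζ ^ 3 + ζ ^ 2 + ζ + 1 = 0 := by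
      refine mul_left_cancel₀ (sub_ne_zero.2 fun e : (ζ : L) = 1 => ?_) (by linear_combination z5)
      simp [Units.val_eq_one.1 e] at hζ
    have := congrArg σ hω
    rw [map_mul, map_add, map_one] at this
    rcases mul_eq_zero.1 (show (σ ω - (ζ + ζ ^ 4)) * (σ ω + 1 - (ζ + ζ ^ 4)) = 0 by grind) with e | e
    exacts [⟨ω, sub_eq_zero.1 e⟩, ⟨ω + 1, by rw [map_add, map_one]; exact sub_eq_zero.1 e⟩]
  have ψ3 : ∀ r t, ψ ((Y6 K).x r t) = (Y6 L).x r (σ t) := ψ2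
  have a3 : ψ (x5 (Y6 K) ω) = x5 (Y6 L) (ζ + ζ ^ 4) := by simp only [x5, map_mul, ψ3, map_pow, map_one, hω]
  have xn : ∀ (s : Fin 72) t, xN (goodE6.rgD K).toRG0 s t = (Y6 K).x s t := xN_val (G := goodE6) _
  have a4 : ∀ g ∈ twistedE6 K 2, ∃ y : chevE6.group K, F (ψ y) = ψ y ∧ y = g := fun g hg => by
    rw [twistedE6, genSubgroup_eq goodE6] at hg
    refine (closure_le (K := ((F.comp ψ).eqLocus ψ).map (chevE6.group K).subtype)).2 ?_ hg
    rintro _ ⟨w, hw, rfl⟩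
    refine ⟨_, ?_, (goodE6.rgD_hom K).map_wordX w⟩
    rcases hw with ⟨t, ht, r, hr, rfl⟩ | ⟨t, r, hr, rfl⟩
    · obtain ⟨s, rfl, c⟩ := (by decide +kernel : ∀ r ∈ [e6p2, e6m2, e6p4, e6m4], ∃ s : Fin 72, r = s ∧ morE6.ρ s = s) r hr
      rw [wordX_cons, wordX_nil, xn]
      change F (ψ ((Y6 K).x s t * 1)) = ψ ((Y6 K).x s t * 1)
      rw [mul_one, ψ3, hF, ← map_pow, ht, show ρ6 s = s from Fin.ext c]
    · obtain ⟨s, s', c0, c1, c2, c3, c4⟩ := (by decide +kernel : ∀ r ∈ [(e6p1, e6p6), (e6m1, e6m6), (e6p3, e6p5), (e6m3, e6m5)],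
        ∃ s s' : Fin 72, r.1 = s ∧ r.2 = s' ∧ morE6.ρ s = s' ∧ morE6.ρ s' = s ∧ 0 ≤ tabE6.pr 6 s s') r hr
      rw [c0, c1, wordX_cons, wordX_cons, wordX_nil, xn, xn]
      change F (ψ ((Y6 K).x s t * ((Y6 K).x s' (t ^ 2) * 1))) = ψ ((Y6 K).x s t * ((Y6 K).x s' (t ^ 2) * 1))
      rw [mul_one, map_mul, map_mul, ψ3, ψ3, hF, hF, ← map_pow, ← map_pow, ← pow_mul, show ρ6 s = s' from Fin.ext c2,
        show ρ6 s' = s from Fin.ext c3, show t ^ (2 * 2) = t by simpa [hK] using FiniteField.pow_card t]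
      exact ((Y6 L).commute_sl (slE6 _) (pair6 s s' ▸ c4) _ _).symm
  obtain ⟨φ, φ1, φ2⟩ := exists_SL4 (ZMod.castHom (dvd_refl 2) K)
  have a5 : ∀ a, (φ a : GL _ K) ∈ twistedE6 K 2 ∧ Commute (x5 (Y6 K) ω) (φ a) := fun a =>
    (closure_le (K := (twistedE6 K 2).subgroupOf _ ⊓ centralizer {x5 (Y6 K) ω})).2 (by
      rintro _ ⟨r, h, rfl⟩
      exact ⟨hS.T_eq.le (Set.mem_of_eq_of_mem ((gl_cons goodE6 r []).trans (mul_one _)).symm (hS.gl_mem (w := [r]) (by revert r; decide +kernel))),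
        mem_centralizer_singleton_iff.2 (x5_comm _ ω h 1).symm⟩) (φ2.le ⟨a, rfl⟩) |>.imp_right fun h => h _ rfl
  have a6 : (x5 (Y6 K) ω).1 ∈ twistedE6 K 2 := by
    have : ∀ (r s : Fin 72) t, ((r, s) : ℕ × ℕ) ∈ [(e6p1, e6p6), (e6m1, e6m6), (e6p3, e6p5), (e6m3, e6m5)] →
        ((Y6 K).x r t * (Y6 K).x s (t ^ 2)).1 ∈ twistedE6 K 2 := fun r s t h => by
      rw [twistedE6, genSubgroup_eq goodE6]
      refine subset_closure ⟨_, Or.inr ⟨t, _, h, rfl⟩, ((goodE6.rgD_hom K).map_wordX _).symm.trans ?_⟩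
      rw [wordX_cons, wordX_cons, wordX_nil, xn, xn, mul_one]
      rfl
    exact mul_mem (this 56 36 ω (by decide)) (by simpa only [one_pow] using this 15 35 1 (by decide))
  obtain ⟨e⟩ : Nonempty (alternatingGroup (Fin 8) ≃* SpecialLinearGroup (Fin 4) (ZMod 2)) :=
    ⟨(S0256.result (ZMod.card 2)).some.symm.trans ((QuotientGroup.quotientMulEquivOfEq (by
      rw [← Subgroup.card_eq_one, H12.card_center_SL]; simp)).trans QuotientGroup.quotientBot)⟩
  have := alternatingGroup.isSimpleGroup (α := Fin 8) (by simp)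
  have a7 : Function.Injective (φ.comp e.toMonoidHom) := (MonoidHom.ker_eq_bot_iff _).1
    ((this.eq_bot_or_eq_top_of_normal _ inferInstance).resolve_right fun h => φ1 (MonoidHom.ext fun a => by
      simpa using h.ge (mem_top (e.symm a))))
  refine ⟨⟨_, a6⟩, ?_, (((chevE6.group K).subtype.comp φ).comp e.toMonoidHom).codRestrict _ fun a => (a5 _).1,
    fun a b h => a7 (Subtype.ext (congrArg (fun y : twistedE6 K 2 => y.1) h)),
    fun a => Subtype.ext (congrArg (fun y : chevE6.group K => y.1) (a5 (e a)).2), fun c hc => ?_⟩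
  · rw [← a1, ← a3, orderOf_injective ψ ψ1, ← orderOf_coe, ← orderOf_coe (x5 _ _)]
  obtain ⟨y, b1, b2⟩ := a4 c c.2
  obtain ⟨m, b3, k, b4⟩ := a2 (ψ y) (a3 ▸ Commute.map (Subtype.ext (by
    have := congrArg Subtype.val hc
    rwa [coe_mul, coe_mul, ← b2] at this)) ψ) b1
  obtain ⟨_, ⟨a, rfl⟩, rfl⟩ := (closure_le (K := φ.range.map ψ)).2 (by
    rintro _ ⟨r, h, rfl⟩
    exact ⟨_, φ2.ge (subset_closure ⟨r, h, rfl⟩), by rw [ψ3, map_one]⟩) b3
  rw [← a3, ← map_pow, ← map_mul, ψ1.eq_iff] at b4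
  exact ⟨e.symm a, k, Subtype.ext (by simp [← b2, b4])⟩

end E6

end Cfsg.Agent.H17
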